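import Mathlib
import Cfsg.Prelude.Def_Solvable
import Cfsg.Agent.Lib.Helper1.Burnside
import Cfsg.Agent.Lib.Helper1.Cores

set_option autoImplicit false

namespace Cfsg.Agent.Lib.Helper24

/-- with an abelian Sylow `p`-subgroup `P` whose normalizer acts freely on the non-identity
elements modulo the centralizer, the centralizer of a non-identity element of `P` has a normal
`p`-complement -/
theorem index_core_p {G : Type*} [Group G] [Finite G] {p : ℕ} [Fact p.Prime] (P : Sylow p G)
    (hab : ∀ x ∈ P, ∀ y ∈ P, x * y = y * x)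
    (hfixC : ∀ n ∈ Subgroup.normalizer (P : Set G), ∀ u ∈ P, u ≠ 1 → n * u * n⁻¹ = u →
      n ∈ Subgroup.centralizer (P : Set G))
    {u : G} (hu : u ∈ P) (hu1 : u ≠ 1) :
    ∃ k : ℕ, (Cfsg.pPrimeCore p ↥(Subgroup.centralizer ({u} : Set G))).index = p ^ k := by
  classical
  have hp : p.Prime := Fact.out
  have hle : (P : Subgroup G) ≤ Subgroup.centralizer ({u} : Set G) := by
    intro x hx
    rw [Subgroup.mem_centralizer_singleton_iff]
    exact hab x hx u hu
  have hP'mem : ∀ y : Subgroup.centralizer ({u} : Set G),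
      y ∈ (P.subtype hle : Subgroup (Subgroup.centralizer ({u} : Set G))) ↔ (y : G) ∈ P := by
    intro y
    rw [Sylow.coe_subtype, Subgroup.mem_subgroupOf]
    rfl
  have hN : Subgroup.normalizer
        (((P.subtype hle : Sylow p (Subgroup.centralizer ({u} : Set G)))) :
          Set (Subgroup.centralizer ({u} : Set G)))
      ≤ Subgroup.centralizer
        (((P.subtype hle : Sylow p (Subgroup.centralizer ({u} : Set G)))) :
          Set (Subgroup.centralizer ({u} : Set G))) := by
    intro n hn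
    have hnu : (n : G) * u = u * (n : G) := Subgroup.mem_centralizer_singleton_iff.mp n.2
    have hun : (n : G) * u * (n : G)⁻¹ = u := by
      rw [hnu, mul_inv_cancel_right]
    have hnN : (n : G) ∈ Subgroup.normalizer (P : Set G) := by
      refine (Subgroup.mem_normalizer_iff (H := (P : Subgroup G))).mpr ?_
      intro z
      have hiff := Subgroup.mem_normalizer_iff
        (H := (P.subtype hle : Subgroup (Subgroup.centralizer ({u} : Set G)))) (g := n)
      have hn' := hiff.mp hn
      constructor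
      · intro hz
        have hzC : z ∈ Subgroup.centralizer ({u} : Set G) := hle hz
        have h1 := (hn' ⟨z, hzC⟩).mp ((hP'mem _).mpr hz)
        exact (hP'mem _).mp h1
      · intro hz
        have hzC : z ∈ Subgroup.centralizer ({u} : Set G) := by
          have h2 : (n : G) * z * (n : G)⁻¹ ∈ Subgroup.centralizer ({u} : Set G) := hle hz
          have h3 : z = (n : G)⁻¹ * ((n : G) * z * (n : G)⁻¹) * (n : G) := by group
          rw [h3]
          exact mul_mem (mul_mem (inv_mem n.2) h2) n.2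
        have h1 := (hn' ⟨z, hzC⟩).mpr ((hP'mem _).mpr hz)
        exact (hP'mem _).mp h1
    have hnC := hfixC (n : G) hnN u hu hu1 hun
    rw [Subgroup.mem_centralizer_iff]
    intro y hy
    have hyP : (y : G) ∈ P := (hP'mem y).mp hy
    apply Subtype.ext
    have h4 := (Subgroup.mem_centralizer_iff.mp hnC) (y : G) hyP
    exact h4
  obtain ⟨Q, K, hKn, hcompl⟩ :=
    Cfsg.Agent.Lib.Helper1.hasNormalPComplement_of_le_centralizer (P.subtype hle) hN
  have hcard : Nat.card K * Nat.card (Q : Subgroup (Subgroup.centralizer ({u} : Set G)))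
      = Nat.card (Subgroup.centralizer ({u} : Set G)) := hcompl.card_mul_card
  obtain ⟨f, hf⟩ : ∃ f : ℕ,
      f = (Nat.card (Subgroup.centralizer ({u} : Set G))).factorization p := ⟨_, rfl⟩
  have hQ : Nat.card (Q : Subgroup (Subgroup.centralizer ({u} : Set G))) = p ^ f := by
    rw [hf]; exact Q.card_eq_multiplicity
  have hodd : ¬ p ∣ Nat.card K := by
    intro h2
    obtain ⟨c, hc⟩ := h2
    have hdvd : p ^ (f + 1) ∣ Nat.card (Subgroup.centralizer ({u} : Set G)) := by
      rw [← hcard, hQ, hc, pow_succ]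
      exact ⟨c, by ring⟩
    rw [hf] at hdvd
    exact Nat.pow_succ_factorization_not_dvd Nat.card_pos.ne' hp hdvd
  have hcop : (Nat.card K).Coprime p :=
    Nat.Coprime.symm ((Nat.Prime.coprime_iff_not_dvd hp).mpr hodd)
  have hKle : K ≤ Cfsg.pPrimeCore p ↥(Subgroup.centralizer ({u} : Set G)) :=
    Cfsg.Agent.Lib.Helper1.le_pPrimeCore p hKn hcop
  have h1 : (Cfsg.pPrimeCore p ↥(Subgroup.centralizer ({u} : Set G))).index ∣ K.index :=
    Subgroup.index_dvd_of_le hKle
  have h2 : K.index = Nat.card (Q : Subgroup (Subgroup.centralizer ({u} : Set G))) :=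
    hcompl.symm.index_eq_card
  rw [h2, hQ] at h1
  obtain ⟨k, -, hk⟩ := (Nat.dvd_prime_pow hp).mp h1
  exact ⟨k, hk⟩

/-- a `p`-regular element lies in the `p'`-core when the latter has `p`-power index -/
theorem mem_pPrimeCore_of_regular {H : Type*} [Group H] [Finite H] {p : ℕ} [Fact p.Prime]
    (k : ℕ) (hk : (Cfsg.pPrimeCore p H).index = p ^ k) (y : H) (hy : ¬ p ∣ orderOf y) :
    y ∈ Cfsg.pPrimeCore p H := by
  have hp : p.Prime := Fact.out
  have hn : (Cfsg.pPrimeCore p H).Normal := Cfsg.Agent.Lib.Helper1.pPrimeCore_normal p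
  rw [← QuotientGroup.eq_one_iff]
  have h1 : ((y : H ⧸ Cfsg.pPrimeCore p H)) ^ (p ^ k) = 1 := by
    rw [← hk, Subgroup.index_eq_card]
    exact pow_card_eq_one'
  have h2 : ((y : H ⧸ Cfsg.pPrimeCore p H)) ^ orderOf y = 1 := by
    rw [← QuotientGroup.mk_pow, pow_orderOf_eq_one]
    rfl
  have h3 := orderOf_dvd_of_pow_eq_one h1
  have h4 := orderOf_dvd_of_pow_eq_one h2
  have hcop : Nat.Coprime (p ^ k) (orderOf y) :=
    Nat.Coprime.pow_left _ ((Nat.Prime.coprime_iff_not_dvd hp).mpr hy)
  have h5 : orderOf (y : H ⧸ Cfsg.pPrimeCore p H) = 1 := Nat.eq_one_of_dvd_coprimes hcop h3 h4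
  exact orderOf_eq_one_iff.mp h5

/-- Burnside's fusion lemma for an abelian Sylow subgroup -/
theorem fusion_abelian_sylow {G : Type*} [Group G] [Finite G] {p : ℕ} [Fact p.Prime]
    (P : Sylow p G) [IsMulCommutative P] (u g : G) (hu : u ∈ P) (hg : g * u * g⁻¹ ∈ P) :
    ∃ n ∈ Subgroup.normalizer (P : Set G), n * u * n⁻¹ = g * u * g⁻¹ := by
  have h := P.conj_eq_normalizer_conj_of_mem u g⁻¹ hu (by rwa [inv_inv])
  obtain ⟨n, hn, hn'⟩ := h
  rw [inv_inv] at hn'
  exact ⟨n⁻¹, inv_mem hn, by rw [inv_inv]; exact hn'.symm⟩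

end Cfsg.Agent.Lib.Helper24
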