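import Mathlib

namespace Cfsg.Agent.Lib.Helper24

/-- A finite group in which every nontrivial `p`-element `v` has `p * orderOf v` dividing the
order of its centralizer contains two independent commuting elements of order `p`. -/
theorem exists_rank_two {Q : Type*} [Group Q] [Finite Q] (p : ℕ) [Fact p.Prime]
    (hp : p ∣ Nat.card Q)
    (h : ∀ v : Q, v ≠ 1 → (∃ k : ℕ, orderOf v = p ^ k) →
      p * orderOf v ∣ Nat.card (Subgroup.centralizer ({v} : Set Q))) :
    ∃ z e : Q, orderOf z = p ∧ orderOf e = p ∧ z * e = e * z ∧ e ∉ Subgroup.zpowers z := by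
  classical
  have hp' : p.Prime := Fact.out
  obtain ⟨v0, hv0⟩ := exists_prime_orderOf_dvd_card' p hp
  have hv0ne : v0 ≠ 1 := by
    rintro rfl
    rw [orderOf_one] at hv0
    exact hp'.one_lt.ne hv0
  -- maximal exponent
  let P : ℕ → Prop := fun m => ∃ v : Q, v ≠ 1 ∧ orderOf v = p ^ m
  have hbound : ∀ m, P m → m ≤ Nat.card Q := by
    rintro m ⟨v, -, hv⟩
    have h1 : orderOf v ≤ Nat.card Q := Nat.le_of_dvd Nat.card_pos (orderOf_dvd_natCard v)
    have h2 : m < p ^ m := Nat.lt_pow_self hp'.one_lt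
    omega
  have hP1 : P 1 := ⟨v0, hv0ne, by simpa using hv0⟩
  set k := Nat.findGreatest P (Nat.card Q) with hk
  have hPk : P k := Nat.findGreatest_spec (hbound 1 hP1) hP1
  have hmax : ∀ m, P m → m ≤ k := fun m hm => Nat.le_findGreatest (hbound m hm) hm
  obtain ⟨v, hv1, hvk⟩ := hPk
  have hk1 : 1 ≤ k := hmax 1 hP1
  -- the centralizer
  have hdvd := h v hv1 ⟨k, hvk⟩
  set C := Subgroup.centralizer ({v} : Set Q) with hC
  have hvC : v ∈ C := by
    rw [hC, Subgroup.mem_centralizer_iff]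
    intro y hy
    rw [Set.mem_singleton_iff] at hy
    rw [hy]
  let v' : C := ⟨v, hvC⟩
  have hcomm : ∀ c : C, c * v' = v' * c := by
    intro c
    have h2 := (Subgroup.mem_centralizer_iff.1
      (show (c : Q) ∈ Subgroup.centralizer ({v} : Set Q) from c.2)) v (Set.mem_singleton v)
    apply Subtype.ext
    simp only [Subgroup.coe_mul]
    exact h2.symm
  have hov' : orderOf v' = p ^ k := by
    rw [← hvk]
    exact (Subgroup.orderOf_coe v').symm ▸ rfl
  set H : Subgroup C := Subgroup.zpowers v' with hH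
  have hHcard : Nat.card H = p ^ k := by
    rw [hH, Nat.card_zpowers, hov']
  have hHcomm : ∀ x ∈ H, ∀ c : C, c * x = x * c := by
    intro x hx c
    rw [hH, Subgroup.mem_zpowers_iff] at hx
    obtain ⟨i, rfl⟩ := hx
    exact ((Commute.zpow_right (hcomm c) i)).eq
  have hHn : H.Normal := by
    constructor
    intro n hn g
    have := hHcomm n hn g
    rw [this, mul_inv_cancel_right]
    exact hn
  have hdvd' : p ^ (k + 1) ∣ Nat.card C := by
    rw [pow_succ, mul_comm, ← hvk]
    exact hdvd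
  obtain ⟨K, hKcard, hHK⟩ := Sylow.exists_subgroup_card_pow_succ hdvd' hHcard
  -- an element of K outside H
  have hne : ∃ w ∈ K, w ∉ H := by
    by_contra hcon
    have hKH : K ≤ H := by
      intro w hw
      by_contra hwH
      exact hcon ⟨w, hw, hwH⟩
    have : K = H := le_antisymm hKH hHK
    rw [this, hHcard] at hKcard
    have : p ^ k < p ^ (k + 1) := Nat.pow_lt_pow_right hp'.one_lt (Nat.lt_succ_self k)
    omega
  obtain ⟨w, hwK, hwH⟩ := hne
  -- w ^ p ∈ H
  have hrel : H.relIndex K = p := by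
    have h1 : H.relIndex K * Nat.card H = Nat.card K := by
      have := Subgroup.card_mul_index (H.subgroupOf K)
      rw [Nat.card_congr (Subgroup.subgroupOfEquivOfLe hHK).toEquiv] at this
      rw [Subgroup.relIndex, mul_comm]
      exact this
    rw [hHcard, hKcard, pow_succ, mul_comm] at h1
    exact Nat.eq_of_mul_eq_mul_left (pow_pos hp'.pos k) h1
  have hwp : w ^ p ∈ H := by
    have := Subgroup.pow_index_mem (H.subgroupOf K) (⟨w, hwK⟩ : K)
    rw [Subgroup.mem_subgroupOf] at this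
    have h2 : (H.subgroupOf K).index = p := hrel
    rw [h2] at this
    simpa using this
  -- order of w
  have hKp : IsPGroup p K := IsPGroup.of_card hKcard
  have hw1 : w ≠ 1 := fun h1 => hwH (h1 ▸ H.one_mem)
  obtain ⟨m, hm⟩ : ∃ m, orderOf w = p ^ m := by
    obtain ⟨m, hm⟩ := (IsPGroup.iff_orderOf.1 hKp) ⟨w, hwK⟩
    refine ⟨m, ?_⟩
    rw [← hm]
    exact (Subgroup.orderOf_coe (⟨w, hwK⟩ : K))
  have hmk : m ≤ k := by
    apply hmax
    refine ⟨(w : Q), ?_, ?_⟩
    · intro h1
      apply hw1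
      exact Subtype.ext h1
    · rw [← hm]
      exact (Subgroup.orderOf_coe w)
  have hwpk : w ^ (p ^ k) = 1 := by
    apply orderOf_dvd_iff_pow_eq_one.1
    rw [hm]
    exact pow_dvd_pow p hmk
  obtain ⟨j, hj⟩ := Subgroup.mem_zpowers_iff.1 hwp
  have hpj : (p : ℤ) ∣ j := by
    have h1 : v' ^ (j * ((p ^ (k - 1) : ℕ) : ℤ)) = 1 := by
      rw [zpow_mul, hj, zpow_natCast, ← pow_mul]
      have : p * p ^ (k - 1) = p ^ k := by
        rw [← pow_succ']
        congr 1
        omega
      rw [this, hwpk]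
    have h2 := orderOf_dvd_iff_zpow_eq_one.2 h1
    rw [hov'] at h2
    have h3 : ((p ^ k : ℕ) : ℤ) = (p : ℤ) * ((p ^ (k - 1) : ℕ) : ℤ) := by
      have : p ^ k = p * p ^ (k - 1) := by
        rw [← pow_succ']
        congr 1
        omega
      rw [this]
      push_cast
      ring
    rw [h3] at h2
    have hne0 : ((p ^ (k - 1) : ℕ) : ℤ) ≠ 0 := by
      exact_mod_cast (pow_pos hp'.pos (k - 1)).ne'
    exact Int.dvd_of_mul_dvd_mul_right hne0 h2
  obtain ⟨t, rfl⟩ := hpj
  -- the elements
  let e : C := w * v' ^ (-t)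
  let z : C := v' ^ (p ^ (k - 1))
  have hwv : Commute w v' := hcomm w
  have hep : e ^ p = 1 := by
    show (w * v' ^ (-t)) ^ p = 1
    rw [(hwv.zpow_right (-t)).mul_pow, ← hj, ← zpow_natCast (v' ^ (-t)) p, ← zpow_mul, ← zpow_add]
    have : (p : ℤ) * t + -t * (p : ℤ) = 0 := by ring
    rw [this, zpow_zero]
  have he1 : e ≠ 1 := by
    intro h1
    apply hwH
    have : w = v' ^ t := by
      have h2 : w * v' ^ (-t) = 1 := h1
      rw [zpow_neg, mul_inv_eq_one] at h2
      exact h2
    rw [this]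
    exact Subgroup.zpow_mem_zpowers v' t
  have hoe : orderOf e = p := orderOf_eq_prime hep he1
  have hzp : z ^ p = 1 := by
    show (v' ^ (p ^ (k - 1))) ^ p = 1
    rw [← pow_mul, ← pow_succ]
    have : k - 1 + 1 = k := by omega
    rw [this, ← hov', pow_orderOf_eq_one]
  have hz1 : z ≠ 1 := by
    show v' ^ (p ^ (k - 1)) ≠ 1
    apply pow_ne_one_of_lt_orderOf (pow_pos hp'.pos (k - 1)).ne'
    rw [hov']
    exact Nat.pow_lt_pow_right hp'.one_lt (by omega)
  have hoz : orderOf z = p := orderOf_eq_prime hzp hz1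
  have hzH : z ∈ H := Subgroup.pow_mem _ (Subgroup.mem_zpowers v') _
  have hze : z * e = e * z := (hHcomm z hzH e).symm
  have heH : e ∉ Subgroup.zpowers z := by
    intro hmem
    have h1 : e ∈ H := (Subgroup.zpowers_le.2 hzH) hmem
    apply hwH
    have h2 : w = e * v' ^ t := by
      show w = w * v' ^ (-t) * v' ^ t
      rw [mul_assoc, ← zpow_add]
      simp
    rw [h2]
    exact H.mul_mem h1 (Subgroup.zpow_mem_zpowers v' t)
  refine ⟨(z : Q), (e : Q), ?_, ?_, ?_, ?_⟩
  · rw [Subgroup.orderOf_coe]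
    exact hoz
  · rw [Subgroup.orderOf_coe]
    exact hoe
  · have := congrArg (Subtype.val) hze
    simpa using this
  · intro hmem
    apply heH
    obtain ⟨i, hi⟩ := Subgroup.mem_zpowers_iff.1 hmem
    rw [Subgroup.mem_zpowers_iff]
    refine ⟨i, ?_⟩
    apply Subtype.ext
    rw [← hi]
    simp

end Cfsg.Agent.Lib.Helper24
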