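import Mathlib
import Cfsg.Agent.Lib.Helper25.PIndex2
import Cfsg.Agent.Lib.Helper8.InducedCC
import Cfsg.Agent.Lib.Helper15.GL2Ind
import Cfsg.Agent.S0933
import Cfsg.Agent.S0964

set_option autoImplicit false

/-!
Blocks covering a block of a normal subgroup and the stabilizer of that block: induction from
the stabilizer (the correspondence of Fong and Reynolds).
-/

namespace Cfsg.Agent.Lib.Helper24

open Cfsg Cfsg.Agent.Lib.Helper2 Cfsg.Agent.Lib.Helper8 Cfsg.Agent.Lib.Helper25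

open scoped ComplexConjugate

section fr

variable {G : Type*} [Group G] [Fintype G]

omit [Fintype G] in
/-- a character of degree zero vanishes -/
theorem isCharacter_eq_zero_of_one {χ : G → ℂ} (hχ : IsCharacter G χ) (h1 : χ 1 = 0) : χ = 0 := by
  obtain ⟨n, ρ, rfl⟩ := hχ
  have h2 : ρ.character 1 = (Module.finrank ℂ (Fin n → ℂ) : ℂ) := Representation.char_one ρ
  rw [h1] at h2
  have hn : n = 0 := by
    have h3 : (Module.finrank ℂ (Fin n → ℂ) : ℂ) = (n : ℂ) := by simp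
    rw [h3] at h2
    exact_mod_cast h2.symm
  subst hn
  funext g
  have h4 : ρ g = 0 := Subsingleton.elim _ _
  simp [Representation.character, h4]

/-- the sum of an irreducible character against the block idempotent -/
theorem sum_blockCoeff_irr (b : Set (IrrCharacter G)) [DecidablePred (· ∈ b)]
    (θ : IrrCharacter G) :
    ∑ n : G, blockCoeff b n * (θ : G → ℂ) n = if θ ∈ b then (θ : G → ℂ) 1 else 0 := by
  have h := Cfsg.Agent.Lib.Helper25.omegaFun_blockCoeff b θ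
  unfold omegaFun at h
  have h1 := irr_one_ne_zero θ.2
  rw [div_eq_iff h1] at h
  rw [h]
  split_ifs <;> simp

variable (N : Subgroup G) [hN : N.Normal] [Fintype N]

/-- the sum of an irreducible character of the group against the idempotent of a block of the
normal subgroup -/
theorem sum_blockCoeff_restrict (b : Set (IrrCharacter N)) [DecidablePred (· ∈ b)]
    (χ : IrrCharacter G) (θ : IrrCharacter N)
    (he : classInner (fun n : N => (χ : G → ℂ) n) (θ : N → ℂ) ≠ 0) :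
    (∑ n : N, blockCoeff b n * (χ : G → ℂ) n) * (Nat.card G : ℂ)
      = (χ : G → ℂ) 1 * ((Finset.univ.filter (fun x : G => conjIrr N θ x ∈ b)).card : ℂ) := by
  classical
  have hθ1 := irr_one_ne_zero θ.2
  have key := clifford_conj_sum N χ θ he
  apply mul_right_cancel₀ hθ1
  have e1 : (∑ n : N, blockCoeff b n * (χ : G → ℂ) n) * (Nat.card G : ℂ) * (θ : N → ℂ) 1
      = ∑ n : N, ∑ x : G, (χ : G → ℂ) 1 * (blockCoeff b n * (conjIrr N θ x : N → ℂ) n) := by
    rw [Finset.sum_mul, Finset.sum_mul]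
    apply Finset.sum_congr rfl
    intro n _
    have h1 : blockCoeff b n * (χ : G → ℂ) n * (Nat.card G : ℂ) * (θ : N → ℂ) 1
        = blockCoeff b n * ((Nat.card G : ℂ) * (θ : N → ℂ) 1 * (χ : G → ℂ) n) := by ring
    rw [h1, ← key n, Finset.sum_mul, Finset.mul_sum]
    apply Finset.sum_congr rfl
    intro x _
    have h2 : (conjIrr N θ x : N → ℂ) n = Helper2.conjFun N (θ : N → ℂ) x n := rfl
    rw [h2]
    ring
  have e3 : ∀ x : G, ∑ n : N, blockCoeff b n * (conjIrr N θ x : N → ℂ) n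
      = if conjIrr N θ x ∈ b then (θ : N → ℂ) 1 else 0 := by
    intro x
    rw [sum_blockCoeff_irr]
    have h3 : (conjIrr N θ x : N → ℂ) 1 = (θ : N → ℂ) 1 := by
      change (θ : N → ℂ) ((MulAut.conjNormal x : MulAut N) 1) = _
      rw [map_one]
    rw [h3]
  rw [e1, Finset.sum_comm]
  have e4 : ∀ x : G, ∑ n : N, (χ : G → ℂ) 1 * (blockCoeff b n * (conjIrr N θ x : N → ℂ) n)
      = (χ : G → ℂ) 1 * (if conjIrr N θ x ∈ b then (θ : N → ℂ) 1 else 0) := by
    intro x
    rw [← Finset.mul_sum, e3 x]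
  rw [Finset.sum_congr rfl (fun x _ => e4 x), ← Finset.mul_sum, ← Finset.sum_filter,
    Finset.sum_const, nsmul_eq_mul]
  ring

/-- the elements moving one member of a block into the block form the stabilizer -/
theorem card_filter_conj_mem {p : ℕ} {M : Ideal AlgInt} (hM : IsPModular p M)
    (b : Set (IrrCharacter N)) (hb : IsPBlock M b) [DecidablePred (· ∈ b)] (T : Subgroup G)
    (hT : ∀ g : G, g ∈ T ↔ ∀ θ ∈ b, conjIrr N θ g ∈ b) (θ : IrrCharacter N) (hθ : θ ∈ b) :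
    (Finset.univ.filter (fun x : G => conjIrr N θ x ∈ b)).card = Nat.card T := by
  classical
  have hpr := isPrime_of_isPModular hM
  have hset : Finset.univ.filter (fun x : G => conjIrr N θ x ∈ b)
      = Finset.univ.filter (fun x : G => x ∈ T) := by
    apply Finset.filter_congr
    intro x _
    constructor
    · intro hx
      rw [hT]
      intro θ₂ hθ₂
      have hs : SameBlock M (θ : N → ℂ) (θ₂ : N → ℂ) := isPBlock_sameBlock' hM hb hθ hθ₂
      have hs' : SameBlock M (conjIrr N θ x : N → ℂ) (conjIrr N θ₂ x : N → ℂ) :=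
        sameBlock_conjFun N hs x
      exact blockClosed_of_isPBlock M hb _ hx _ hs'
    · intro hx
      exact (hT x).mp hx θ hθ
  rw [hset, Nat.card_eq_fintype_card, Fintype.card_subtype]

omit hN in
/-- a sum over a subgroup against a function supported on a smaller subgroup -/
theorem sum_T_extend (T : Subgroup G) [Fintype T] (hNT : N ≤ T) (f : N → ℂ) (ξ : T → ℂ) :
    ∑ t : T, extendByZero N f (t : G) * ξ t = ∑ n : N, f n * ξ ⟨(n : G), hNT n.2⟩ := by
  have h1 := Cfsg.Agent.Lib.Helper2.sum_extendByZero_mul N f (extendByZero T ξ)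
  have h2 := Cfsg.Agent.Lib.Helper2.sum_extendByZero_mul T ξ (extendByZero N f)
  have e1 : ∑ t : T, extendByZero N f (t : G) * ξ t = ∑ t : T, ξ t * extendByZero N f (t : G) := by
    apply Finset.sum_congr rfl
    intro t _
    ring
  have e2 : ∑ n : N, f n * ξ ⟨(n : G), hNT n.2⟩ = ∑ n : N, f n * extendByZero T ξ (n : G) := by
    apply Finset.sum_congr rfl
    intro n _
    rw [extendByZero_of_mem T ξ (hNT n.2)]
  rw [e1, e2, ← h1, ← h2]
  apply Finset.sum_congr rfl
  intro g _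
  ring

/-- a subgroup `T` containing `N` and stabilizing the block `b` of `N`: the idempotent of `b`
gives a class function on `T`, and the sum of an irreducible character of `T` against it is its
degree or zero, according as a constituent of its restriction lies in `b` or not -/
theorem stab_data (b : Set (IrrCharacter N)) [DecidablePred (· ∈ b)]
    (T : Subgroup G) [Fintype T] (hNT : N ≤ T)
    (hst : ∀ t ∈ T, ∀ θ ∈ b, conjIrr N θ t ∈ b) :
    IsClassFunction T (fun t : T => extendByZero N (blockCoeff b) (t : G)) ∧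
    ∀ (ξ : IrrCharacter T) (θ : IrrCharacter N),
      classInner (fun n : N => (ξ : T → ℂ) ⟨(n : G), hNT n.2⟩) (θ : N → ℂ) ≠ 0 →
      ∑ t : T, extendByZero N (blockCoeff b) (t : G) * (ξ : T → ℂ) t
        = if θ ∈ b then (ξ : T → ℂ) 1 else 0 := by
  classical
  set N' : Subgroup T := N.subgroupOf T with hN'
  haveI hN'n : N'.Normal := Subgroup.normal_subgroupOf
  haveI : Fintype N' := Fintype.ofFinite _
  let φ : N' ≃* N := Subgroup.subgroupOfEquivOfLe hNT
  set c : Set (IrrCharacter N') := isoIrr φ.symm '' b with hc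
  -- stability
  have hconj : ∀ (t : T) (η : IrrCharacter N),
      conjIrr N' (isoIrr φ.symm η) t = isoIrr φ.symm (conjIrr N η (t : G)) := by
    intro t η
    apply Subtype.ext
    funext n'
    rw [conjIrr_apply]
    rfl
  have horb : conjOrbit N' c = c := by
    ext ψ
    constructor
    · rintro ⟨t, η, hη, hψ⟩
      have h1 : ψ = conjIrr N' (conjIrr N' ψ t) t⁻¹ := by
        rw [← conjIrr_mul, mul_inv_cancel, conjIrr_one]
      rw [h1, ← hψ, hconj]
      exact ⟨_, hst _ (t⁻¹).2 η hη, rfl⟩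
    · exact fun h => mem_conjOrbit_of_mem N' h
  have hinv : ∀ (t : T) (n' : N'),
      blockCoeff c ((MulAut.conjNormal t : MulAut N') n') = blockCoeff c n' := by
    intro t n'
    have h2 := blockCoeff_conjOrbit_conj N' c t n'
    rwa [horb] at h2
  have hcoef : ∀ t : T, extendByZero N' (blockCoeff c) t
      = extendByZero N (blockCoeff b) (t : G) := by
    intro t
    by_cases ht : (t : G) ∈ N
    · have ht' : t ∈ N' := Subgroup.mem_subgroupOf.mpr ht
      rw [extendByZero_of_mem N' _ ht', extendByZero_of_mem N _ ht]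
      have h3 := blockCoeff_image_isoIrr φ.symm b ⟨(t : G), ht⟩
      rw [← h3]
      rfl
    · have ht' : t ∉ N' := fun h => ht (Subgroup.mem_subgroupOf.mp h)
      rw [extendByZero_of_not_mem N' _ ht', extendByZero_of_not_mem N _ ht]
  have hfun : (fun t : T => extendByZero N (blockCoeff b) (t : G))
      = extendByZero N' (blockCoeff c) := funext (fun t => (hcoef t).symm)
  refine ⟨?_, fun ξ θ he => ?_⟩
  · rw [hfun]
    exact extendByZero_isClassFunction N' (blockCoeff c) hinv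
  set θ' : IrrCharacter N' := isoIrr φ.symm θ with hθ'
  -- constituent
  have he' : classInner (fun n' : N' => (ξ : T → ℂ) n') (θ' : N' → ℂ) ≠ 0 := by
    have e : classInner (fun n' : N' => (ξ : T → ℂ) n') (θ' : N' → ℂ)
        = classInner (fun n : N => (ξ : T → ℂ) ⟨(n : G), hNT n.2⟩) (θ : N → ℂ) := by
      rw [classInner_def, classInner_def, Nat.card_congr φ.toEquiv]
      congr 1
      apply Fintype.sum_equiv φ.toEquiv
      intro n'
      rfl
    rw [e]
    exact he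
  have h1 := omegaFun_extend_of_constituent N' ξ θ' he' (blockCoeff c) hinv
  rw [Cfsg.Agent.Lib.Helper25.omegaFun_blockCoeff c θ'] at h1
  have hmem : θ' ∈ c ↔ θ ∈ b := (isoIrr φ.symm).injective.mem_set_image
  unfold omegaFun at h1
  have hξ1 := irr_one_ne_zero ξ.2
  rw [div_eq_iff hξ1] at h1
  have e5 : ∑ t : T, extendByZero N (blockCoeff b) (t : G) * (ξ : T → ℂ) t
      = ∑ t : T, extendByZero N' (blockCoeff c) t * (ξ : T → ℂ) t := by
    apply Finset.sum_congr rfl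
    intro t _
    rw [hcoef t]
  rw [e5, h1]
  by_cases hθb : θ ∈ b
  · rw [if_pos hθb, if_pos (hmem.mpr hθb), one_mul]
  · rw [if_neg hθb, if_neg (fun h => hθb (hmem.mp h)), zero_mul]

/-- the sum of an irreducible character of `T` against the idempotent of the stable block -/
theorem sum_T_blockCoeff (b : Set (IrrCharacter N)) [DecidablePred (· ∈ b)]
    (T : Subgroup G) [Fintype T] (hNT : N ≤ T)
    (hst : ∀ t ∈ T, ∀ θ ∈ b, conjIrr N θ t ∈ b) (ξ : IrrCharacter T) (θ : IrrCharacter N)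
    (he : classInner (fun n : N => (ξ : T → ℂ) ⟨(n : G), hNT n.2⟩) (θ : N → ℂ) ≠ 0) :
    ∑ t : T, extendByZero N (blockCoeff b) (t : G) * (ξ : T → ℂ) t
      = if θ ∈ b then (ξ : T → ℂ) 1 else 0 :=
  (stab_data N b T hNT hst).2 ξ θ he

omit hN [Fintype G] [Fintype N] in
/-- restriction of a character of `T` to a subgroup `N ≤ T` -/
theorem isCharacter_restrict_le (T : Subgroup G) (hNT : N ≤ T) {ξ : T → ℂ}
    (hξ : IsCharacter T ξ) : IsCharacter N (fun n : N => ξ ⟨(n : G), hNT n.2⟩) := by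
  obtain ⟨n, ρ, rfl⟩ := hξ
  exact ⟨n, ρ.comp (Subgroup.inclusion hNT), rfl⟩

/-- **induction from the stabilizer of a block**: an irreducible character of the stabilizer
`T` of the block `b` of the normal subgroup `N` lying over `b` induces irreducibly, the induced
character lies over `b`, and no other irreducible character of `T` over `b` is a constituent of
its restriction to `T` -/
theorem ind_irr_of_over {p : ℕ} {M : Ideal AlgInt} (hM : IsPModular p M)
    (b : Set (IrrCharacter N)) (hb : IsPBlock M b)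
    (T : Subgroup G) [Fintype T] (hNT : N ≤ T)
    (hT : ∀ g : G, g ∈ T ↔ ∀ θ ∈ b, conjIrr N θ g ∈ b)
    (ξ : IrrCharacter T) (θ : IrrCharacter N) (hθ : θ ∈ b)
    (he : classInner (fun n : N => (ξ : T → ℂ) ⟨(n : G), hNT n.2⟩) (θ : N → ℂ) ≠ 0) :
    IsIrrCharacter G (indFun T (ξ : T → ℂ)) ∧
    (∃ θ₂ ∈ b, classInner (fun n : N => indFun T (ξ : T → ℂ) (n : G)) (θ₂ : N → ℂ) ≠ 0) ∧
    ∀ ξ' : IrrCharacter T, ∀ θ' ∈ b,
      classInner (fun n : N => (ξ' : T → ℂ) ⟨(n : G), hNT n.2⟩) (θ' : N → ℂ) ≠ 0 →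
      classInner (fun t : T => indFun T (ξ : T → ℂ) (t : G)) (ξ' : T → ℂ) ≠ 0 → ξ' = ξ := by
  classical
  haveI : Fintype (IrrCharacter T) := Fintype.ofFinite _
  have hst : ∀ t ∈ T, ∀ θ ∈ b, conjIrr N θ t ∈ b := fun t ht => (hT t).mp ht
  set Φ := indFun T (ξ : T → ℂ) with hΦ
  have hξc := isCharacter_of_isIrrCharacter ξ.2
  have hΦc : IsCharacter G Φ := indFun_isCharacter T hξc
  obtain ⟨d, hd1, hdpos, -, -⟩ := irr_degree ξ
  have hidx : T.index ≠ 0 := Subgroup.index_ne_zero_of_finite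
  have hΦ1 : Φ 1 = ((T.index * d : ℕ) : ℂ) := by
    rw [hΦ, Cfsg.Agent.Lib.Helper8.indFun_one, hd1]; push_cast; ring
  have hD0 : T.index * d ≠ 0 := Nat.mul_ne_zero hidx hdpos.ne'
  have hΦne : Φ ≠ 0 := by
    intro h0
    have h1 := congrFun h0 1
    rw [hΦ1, Pi.zero_apply] at h1
    exact hD0 (by exact_mod_cast h1)
  obtain ⟨χf, hχirr, hχne⟩ := exists_irr_constituent hΦc hΦne
  set χ : IrrCharacter G := ⟨χf, hχirr⟩ with hχdef
  have hχcf : IsClassFunction G χf := isClassFunction_of_isIrrCharacter hχirr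
  have hχc : IsCharacter G χf := isCharacter_of_isIrrCharacter hχirr
  set χT : T → ℂ := fun t : T => χf (t : G) with hχT
  have hχTc : IsCharacter T χT := IsCharacter.restrict hχc T
  have hχTcf : IsClassFunction T χT := isClassFunction_of_isCharacter hχTc
  have hnat : ∀ ξ' : IrrCharacter T, ∃ m : ℕ, classInner χT (ξ' : T → ℂ) = (m : ℂ) :=
    fun ξ' => classInner_isCharacter_nat hχTc (isCharacter_of_isIrrCharacter ξ'.2)
  choose m hm using hnat
  have hmξ : m ξ ≠ 0 := by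
    intro h0
    apply hχne
    rw [hΦ, frobenius_reciprocity T (ξ : T → ℂ) χf hχcf, ← classInner_conj_symm]
    have h1 : classInner (fun h : T => χf (h : G)) (ξ : T → ℂ) = 0 := by
      rw [show (fun h : T => χf (h : G)) = χT from rfl, hm ξ, h0]; simp
    rw [h1]; simp
  set β : G → ℂ := extendByZero N (blockCoeff b) with hβ
  have hv : ∀ ξ' : IrrCharacter T, ∃ k : ℕ,
      ∑ t : T, β (t : G) * (ξ' : T → ℂ) t = (k : ℂ) ∧
      ((∃ θ' ∈ b, classInner (fun n : N => (ξ' : T → ℂ) ⟨(n : G), hNT n.2⟩) (θ' : N → ℂ) ≠ 0) →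
        0 < k ∧ (ξ' : T → ℂ) 1 = (k : ℂ)) := by
    intro ξ'
    obtain ⟨d', hd1', hdpos', -, -⟩ := irr_degree ξ'
    have hres : IsCharacter N (fun n : N => (ξ' : T → ℂ) ⟨(n : G), hNT n.2⟩) :=
      isCharacter_restrict_le N T hNT (isCharacter_of_isIrrCharacter ξ'.2)
    have hresne : (fun n : N => (ξ' : T → ℂ) ⟨(n : G), hNT n.2⟩) ≠ 0 := by
      intro h0
      exact irr_one_ne_zero ξ'.2 (congrFun h0 1)
    obtain ⟨θ₁, hθ₁irr, hθ₁⟩ := exists_irr_constituent hres hresne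
    have h1 := sum_T_blockCoeff N b T hNT hst ξ' ⟨θ₁, hθ₁irr⟩ hθ₁
    by_cases hmem : (⟨θ₁, hθ₁irr⟩ : IrrCharacter N) ∈ b
    · rw [if_pos hmem] at h1
      exact ⟨d', by rw [hβ, h1, hd1'], fun _ => ⟨hdpos', hd1'⟩⟩
    · rw [if_neg hmem] at h1
      refine ⟨0, by rw [hβ, h1]; simp, ?_⟩
      rintro ⟨θ', hθ', hne'⟩
      have h2 := sum_T_blockCoeff N b T hNT hst ξ' θ' hne'
      rw [if_pos hθ', h1] at h2
      exact absurd h2.symm (irr_one_ne_zero ξ'.2)
  choose k hk1 hk3 using hv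
  have hexp : χT = ∑ ξ' : IrrCharacter T, classInner χT (ξ' : T → ℂ) • (ξ' : T → ℂ) :=
    class_fun_expand χT hχTcf
  have hS : ∑ n : N, blockCoeff b n * χf (n : G)
      = ((∑ ξ' : IrrCharacter T, m ξ' * k ξ' : ℕ) : ℂ) := by
    have h1 := sum_T_extend N T hNT (blockCoeff b) χT
    have h2 : ∑ n : N, blockCoeff b n * χf (n : G) = ∑ t : T, β (t : G) * χT t := h1.symm
    rw [h2]
    have h3 : ∀ t : T, β (t : G) * χT t
        = ∑ ξ' : IrrCharacter T, (m ξ' : ℂ) * (β (t : G) * (ξ' : T → ℂ) t) := by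
      intro t
      conv_lhs => rw [hexp]
      rw [Finset.sum_apply, Finset.mul_sum]
      apply Finset.sum_congr rfl
      intro ξ' _
      rw [Pi.smul_apply, smul_eq_mul, hm]
      ring
    rw [Finset.sum_congr rfl (fun t _ => h3 t), Finset.sum_comm]
    push_cast
    apply Finset.sum_congr rfl
    intro ξ' _
    rw [← hk1 ξ', Finset.mul_sum]
  set s := ∑ ξ' : IrrCharacter T, m ξ' * k ξ' with hs
  obtain ⟨hkpos, hξk⟩ := hk3 ξ ⟨θ, hθ, he⟩
  have hkd : k ξ = d := by
    have h1 : ((k ξ : ℕ) : ℂ) = (d : ℂ) := hξk.symm.trans hd1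
    exact_mod_cast h1
  have hsplit := Finset.add_sum_erase Finset.univ (fun ξ' => m ξ' * k ξ') (Finset.mem_univ ξ)
  have hterm : d ≤ m ξ * k ξ := by
    rw [hkd]
    exact Nat.le_mul_of_pos_left _ (Nat.pos_of_ne_zero hmξ)
  have hsd : d ≤ s := by
    rw [hs, ← hsplit]
    exact le_trans hterm (Nat.le_add_right _ _)
  -- `χ` lies over a member of `b`
  have hχres : IsCharacter N (fun n : N => χf (n : G)) := IsCharacter.restrict hχc N
  have hχresne : (fun n : N => χf (n : G)) ≠ 0 :=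
    fun h0 => irr_one_ne_zero hχirr (congrFun h0 1)
  obtain ⟨θ₁f, hθ₁irr, hθ₁⟩ := exists_irr_constituent hχres hχresne
  have hL2 := sum_blockCoeff_restrict N b χ ⟨θ₁f, hθ₁irr⟩ hθ₁
  rw [show ∑ n : N, blockCoeff b n * (χ : G → ℂ) (n : G) = ((s : ℕ) : ℂ) from hS] at hL2
  have hs0 : s ≠ 0 := by omega
  have hGne : (Nat.card G : ℂ) ≠ 0 := card_ne_zero_complex G
  have hfne : (Finset.univ.filter
      (fun x : G => conjIrr N (⟨θ₁f, hθ₁irr⟩ : IrrCharacter N) x ∈ b)).Nonempty := by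
    rw [Finset.nonempty_iff_ne_empty]
    intro h0
    rw [h0, Finset.card_empty, Nat.cast_zero, mul_zero] at hL2
    rcases mul_eq_zero.mp hL2 with h | h
    · exact hs0 (by exact_mod_cast h)
    · exact hGne h
  obtain ⟨x, hx⟩ := hfne
  have hx' : conjIrr N (⟨θ₁f, hθ₁irr⟩ : IrrCharacter N) x ∈ b := (Finset.mem_filter.mp hx).2
  set θ₂ := conjIrr N (⟨θ₁f, hθ₁irr⟩ : IrrCharacter N) x with hθ₂def
  have hθ₂ : classInner (fun n : N => χf (n : G)) (θ₂ : N → ℂ) ≠ 0 := by
    have h1 : (θ₂ : N → ℂ) = Helper2.conjFun N θ₁f x := rfl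
    rw [h1, classInner_restrict_conjFun N hχcf θ₁f x]
    exact hθ₁
  have hL2' := sum_blockCoeff_restrict N b χ θ₂ hθ₂
  rw [show ∑ n : N, blockCoeff b n * (χ : G → ℂ) (n : G) = ((s : ℕ) : ℂ) from hS,
    card_filter_conj_mem N hM b hb T hT θ₂ hx'] at hL2'
  obtain ⟨e', he'1, he'pos, -, -⟩ := irr_degree χ
  have hnat1 : s * Nat.card G = e' * Nat.card T := by
    rw [he'1] at hL2'
    exact_mod_cast hL2'
  have hcard : Nat.card G = Nat.card T * T.index := (Subgroup.card_mul_index T).symm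
  have hTpos : 0 < Nat.card T := Nat.card_pos
  have hse : s * T.index = e' := by
    rw [hcard] at hnat1
    have h1 : Nat.card T * (s * T.index) = Nat.card T * e' := by
      calc Nat.card T * (s * T.index) = s * (Nat.card T * T.index) := by ring
        _ = e' * Nat.card T := hnat1
        _ = Nat.card T * e' := by ring
    exact Nat.eq_of_mul_eq_mul_left hTpos h1
  have hΔ : IsCharacter G (Φ - χf) := IsCharacter.sub_irr hΦc hχirr hχne
  obtain ⟨nΔ, ρΔ, hρΔ⟩ := hΔ
  have hΔ1 : (Φ - χf) 1 = (nΔ : ℂ) := by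
    rw [← hρΔ, Representation.char_one]; simp
  have hle : e' + nΔ = T.index * d := by
    have h1 : (Φ - χf) 1 = Φ 1 - χf 1 := rfl
    have h2 : χf 1 = (e' : ℂ) := he'1
    rw [h1, hΦ1, h2] at hΔ1
    have h' : ((T.index * d : ℕ) : ℂ) = ((e' + nΔ : ℕ) : ℂ) := by
      push_cast at hΔ1 ⊢
      linear_combination hΔ1
    exact_mod_cast h'.symm
  have h5 : d * T.index ≤ s * T.index := Nat.mul_le_mul_right _ hsd
  have hnΔ : nΔ = 0 := by
    have h6 : T.index * d = d * T.index := Nat.mul_comm _ _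
    omega
  have hsd2 : s = d := by
    have h6 : T.index * d = d * T.index := Nat.mul_comm _ _
    have h3 : s * T.index = d * T.index := by omega
    exact Nat.eq_of_mul_eq_mul_right (Nat.pos_of_ne_zero hidx) h3
  have hΦχ : Φ = χf := by
    have h0 : Φ - χf = 0 :=
      isCharacter_eq_zero_of_one ⟨nΔ, ρΔ, hρΔ⟩ (by rw [hΔ1, hnΔ]; simp)
    exact sub_eq_zero.mp h0
  refine ⟨by rw [hΦχ]; exact hχirr, ⟨θ₂, hx', by rw [hΦχ]; exact hθ₂⟩, ?_⟩
  intro ξ' θ' hθ' hne' hin
  by_contra hneq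
  have hmem : ξ' ∈ Finset.univ.erase ξ := Finset.mem_erase.mpr ⟨hneq, Finset.mem_univ _⟩
  have hzero : ∑ ξ'' ∈ Finset.univ.erase ξ, m ξ'' * k ξ'' = 0 := by
    rw [hs] at hsd2
    have := hsplit
    omega
  have hterm' := Finset.sum_eq_zero_iff.mp hzero ξ' hmem
  obtain ⟨hkpos', -⟩ := hk3 ξ' ⟨θ', hθ', hne'⟩
  have hm' : m ξ' ≠ 0 := by
    intro h0
    apply hin
    rw [hΦχ, show (fun t : T => χf (t : G)) = χT from rfl, hm ξ', h0]
    simp
  rcases Nat.mul_eq_zero.mp hterm' with h | h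
  · exact hm' h
  · omega

omit [Fintype G] in
/-- conversion of the stabilizer hypothesis -/
theorem stab_iff (b : Set (IrrCharacter N)) (T : Subgroup G)
    (hT : ∀ g : G, g ∈ T ↔ ∀ θ ∈ b, ∀ θ' : IrrCharacter N,
      (∀ n : N, (θ' : N → ℂ) n = (θ : N → ℂ) ⟨g * n * g⁻¹, hN.conj_mem n n.2 g⟩) → θ' ∈ b) :
    ∀ g : G, g ∈ T ↔ ∀ θ ∈ b, conjIrr N θ g ∈ b := by
  intro g
  rw [hT g]
  constructor
  · intro h θ hθ
    exact h θ hθ (conjIrr N θ g) (fun n => conjIrr_apply N θ g n)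
  · intro h θ hθ θ' hθ'
    have e : θ' = conjIrr N θ g :=
      Subtype.ext (funext fun n => by rw [hθ' n, conjIrr_apply])
    rw [e]
    exact h θ hθ

/-- the restriction to `T` of a character of the group, expanded against the idempotent of the
stable block -/
theorem restrict_data (b : Set (IrrCharacter N)) [DecidablePred (· ∈ b)]
    (T : Subgroup G) [Fintype T] (hNT : N ≤ T)
    (hst : ∀ t ∈ T, ∀ θ ∈ b, conjIrr N θ t ∈ b) [Fintype (IrrCharacter T)]
    (χf : G → ℂ) (hχc : IsCharacter G χf) :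
    ∃ m k : IrrCharacter T → ℕ,
      (∀ ξ' : IrrCharacter T,
        classInner (fun t : T => χf (t : G)) (ξ' : T → ℂ) = (m ξ' : ℂ)) ∧
      (∀ ξ' : IrrCharacter T, k ξ' ≠ 0 → ∃ θ' ∈ b,
        classInner (fun n : N => (ξ' : T → ℂ) ⟨(n : G), hNT n.2⟩) (θ' : N → ℂ) ≠ 0) ∧
      ∑ n : N, blockCoeff b n * χf (n : G)
        = ((∑ ξ' : IrrCharacter T, m ξ' * k ξ' : ℕ) : ℂ) := by
  classical
  set χT : T → ℂ := fun t : T => χf (t : G) with hχT
  have hχTc : IsCharacter T χT := IsCharacter.restrict hχc T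
  have hχTcf : IsClassFunction T χT := isClassFunction_of_isCharacter hχTc
  have hnat : ∀ ξ' : IrrCharacter T, ∃ m : ℕ, classInner χT (ξ' : T → ℂ) = (m : ℂ) :=
    fun ξ' => classInner_isCharacter_nat hχTc (isCharacter_of_isIrrCharacter ξ'.2)
  choose m hm using hnat
  set β : G → ℂ := extendByZero N (blockCoeff b) with hβ
  have hv : ∀ ξ' : IrrCharacter T, ∃ k : ℕ,
      ∑ t : T, β (t : G) * (ξ' : T → ℂ) t = (k : ℂ) ∧
      (k ≠ 0 → ∃ θ' ∈ b,
        classInner (fun n : N => (ξ' : T → ℂ) ⟨(n : G), hNT n.2⟩) (θ' : N → ℂ) ≠ 0) := by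
    intro ξ'
    obtain ⟨d', hd1', hdpos', -, -⟩ := irr_degree ξ'
    have hres : IsCharacter N (fun n : N => (ξ' : T → ℂ) ⟨(n : G), hNT n.2⟩) :=
      isCharacter_restrict_le N T hNT (isCharacter_of_isIrrCharacter ξ'.2)
    have hresne : (fun n : N => (ξ' : T → ℂ) ⟨(n : G), hNT n.2⟩) ≠ 0 := by
      intro h0
      exact irr_one_ne_zero ξ'.2 (congrFun h0 1)
    obtain ⟨θ₁, hθ₁irr, hθ₁⟩ := exists_irr_constituent hres hresne
    have h1 := sum_T_blockCoeff N b T hNT hst ξ' ⟨θ₁, hθ₁irr⟩ hθ₁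
    by_cases hmem : (⟨θ₁, hθ₁irr⟩ : IrrCharacter N) ∈ b
    · rw [if_pos hmem] at h1
      exact ⟨d', by rw [hβ, h1, hd1'], fun _ => ⟨_, hmem, hθ₁⟩⟩
    · rw [if_neg hmem] at h1
      exact ⟨0, by rw [hβ, h1]; simp, fun h => absurd rfl h⟩
  choose k hk1 hk2 using hv
  refine ⟨m, k, hm, hk2, ?_⟩
  have hexp : χT = ∑ ξ' : IrrCharacter T, classInner χT (ξ' : T → ℂ) • (ξ' : T → ℂ) :=
    class_fun_expand χT hχTcf
  have h1 := sum_T_extend N T hNT (blockCoeff b) χT
  have h2 : ∑ n : N, blockCoeff b n * χf (n : G) = ∑ t : T, β (t : G) * χT t := h1.symm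
  rw [h2]
  have h3 : ∀ t : T, β (t : G) * χT t
      = ∑ ξ' : IrrCharacter T, (m ξ' : ℂ) * (β (t : G) * (ξ' : T → ℂ) t) := by
    intro t
    conv_lhs => rw [hexp]
    rw [Finset.sum_apply, Finset.mul_sum]
    apply Finset.sum_congr rfl
    intro ξ' _
    rw [Pi.smul_apply, smul_eq_mul, hm]
    ring
  rw [Finset.sum_congr rfl (fun t _ => h3 t), Finset.sum_comm]
  push_cast
  apply Finset.sum_congr rfl
  intro ξ' _
  rw [← hk1 ξ', Finset.mul_sum]

/-- every irreducible character of the group lying over the block `b` is induced from an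
irreducible character of the stabilizer lying over `b` -/
theorem exists_ind_eq_of_over {p : ℕ} {M : Ideal AlgInt} (hM : IsPModular p M)
    (b : Set (IrrCharacter N)) (hb : IsPBlock M b)
    (T : Subgroup G) [Fintype T] (hNT : N ≤ T)
    (hT : ∀ g : G, g ∈ T ↔ ∀ θ ∈ b, conjIrr N θ g ∈ b)
    (χ : IrrCharacter G) (θ : IrrCharacter N) (hθ : θ ∈ b)
    (he : classInner (fun n : N => (χ : G → ℂ) n) (θ : N → ℂ) ≠ 0) :
    ∃ ξ : IrrCharacter T,
      (∃ θ' ∈ b,
        classInner (fun n : N => (ξ : T → ℂ) ⟨(n : G), hNT n.2⟩) (θ' : N → ℂ) ≠ 0) ∧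
      indFun T (ξ : T → ℂ) = (χ : G → ℂ) := by
  classical
  haveI : Fintype (IrrCharacter T) := Fintype.ofFinite _
  have hst : ∀ t ∈ T, ∀ θ ∈ b, conjIrr N θ t ∈ b := fun t ht => (hT t).mp ht
  obtain ⟨m, k, hm, hk2, hS⟩ :=
    restrict_data N b T hNT hst (χ : G → ℂ) (isCharacter_of_isIrrCharacter χ.2)
  have hL2 := sum_blockCoeff_restrict N b χ θ he
  rw [hS, card_filter_conj_mem N hM b hb T hT θ hθ] at hL2
  have hs0 : (∑ ξ' : IrrCharacter T, m ξ' * k ξ') ≠ 0 := by
    intro h0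
    rw [h0, Nat.cast_zero, zero_mul] at hL2
    exact (mul_ne_zero (irr_one_ne_zero χ.2) (card_ne_zero_complex T)) hL2.symm
  obtain ⟨ξ, -, hξ⟩ := Finset.exists_ne_zero_of_sum_ne_zero hs0
  have hmξ : m ξ ≠ 0 := fun h => hξ (by rw [h, zero_mul])
  have hkξ : k ξ ≠ 0 := fun h => hξ (by rw [h, mul_zero])
  obtain ⟨θ', hθ', hne'⟩ := hk2 ξ hkξ
  refine ⟨ξ, ⟨θ', hθ', hne'⟩, ?_⟩
  obtain ⟨hirr, -, -⟩ := ind_irr_of_over N hM b hb T hNT hT ξ θ' hθ' hne'
  by_contra hneq
  have h0 := classInner_irr_ne hirr χ.2 hneq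
  rw [frobenius_reciprocity T (ξ : T → ℂ) (χ : G → ℂ)
    (isClassFunction_of_isIrrCharacter χ.2), ← classInner_conj_symm, hm ξ] at h0
  apply hmξ
  have h1 : ((m ξ : ℕ) : ℂ) = 0 := by simpa using h0
  exact_mod_cast h1

/-- induction from the stabilizer is injective on the characters lying over the block -/
theorem ind_injective_of_over {p : ℕ} {M : Ideal AlgInt} (hM : IsPModular p M)
    (b : Set (IrrCharacter N)) (hb : IsPBlock M b)
    (T : Subgroup G) [Fintype T] (hNT : N ≤ T)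
    (hT : ∀ g : G, g ∈ T ↔ ∀ θ ∈ b, conjIrr N θ g ∈ b)
    (ξ ξ' : IrrCharacter T) (θ θ' : IrrCharacter N) (hθ : θ ∈ b) (hθ' : θ' ∈ b)
    (he : classInner (fun n : N => (ξ : T → ℂ) ⟨(n : G), hNT n.2⟩) (θ : N → ℂ) ≠ 0)
    (he' : classInner (fun n : N => (ξ' : T → ℂ) ⟨(n : G), hNT n.2⟩) (θ' : N → ℂ) ≠ 0)
    (heq : indFun T (ξ : T → ℂ) = indFun T (ξ' : T → ℂ)) : ξ' = ξ := by
  obtain ⟨hirr, -, huniq⟩ := ind_irr_of_over N hM b hb T hNT hT ξ θ hθ he
  apply huniq ξ' θ' hθ' he'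
  have h1 := frobenius_reciprocity T (ξ' : T → ℂ) (indFun T (ξ' : T → ℂ))
    (indFun_isClassFunction T _)
  rw [heq] at hirr ⊢
  rw [← classInner_conj_symm, ← h1, classInner_irr_self hirr]
  simp

/-- a character of the stabilizer in the block of a character lying over `b` lies over `b` -/
theorem over_of_sameBlock {p : ℕ} {M : Ideal AlgInt} (hM : IsPModular p M)
    (b : Set (IrrCharacter N)) (hb : IsPBlock M b)
    (T : Subgroup G) [Fintype T] (hNT : N ≤ T)
    (hst : ∀ t ∈ T, ∀ θ ∈ b, conjIrr N θ t ∈ b) (ψ₀ ψ : IrrCharacter T)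
    (hs : SameBlock M (ψ₀ : T → ℂ) (ψ : T → ℂ)) (θ₀ : IrrCharacter N) (hθ₀ : θ₀ ∈ b)
    (he : classInner (fun n : N => (ψ₀ : T → ℂ) ⟨(n : G), hNT n.2⟩) (θ₀ : N → ℂ) ≠ 0) :
    ∃ θ ∈ b, classInner (fun n : N => (ψ : T → ℂ) ⟨(n : G), hNT n.2⟩) (θ : N → ℂ) ≠ 0 := by
  classical
  have hpr := isPrime_of_isPModular hM
  obtain ⟨hcf, hval⟩ := stab_data N b T hNT hst
  set r : T → ℂ := fun t : T => extendByZero N (blockCoeff b) (t : G) with hr
  have hR : ∀ t : T, MemLocalRing M (r t) := fun t =>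
    extendByZero_memLocalRing M N
      (fun n => blockCoeff_memLocalRing hM b (blockClosed_of_isPBlock M hb) n) _
  have h1 := omegaFun_sub_mem hM ψ₀ ψ hs r hcf hR
  have hres : IsCharacter N (fun n : N => (ψ : T → ℂ) ⟨(n : G), hNT n.2⟩) :=
    isCharacter_restrict_le N T hNT (isCharacter_of_isIrrCharacter ψ.2)
  have hresne : (fun n : N => (ψ : T → ℂ) ⟨(n : G), hNT n.2⟩) ≠ 0 :=
    fun h0 => irr_one_ne_zero ψ.2 (congrFun h0 1)
  obtain ⟨θ₁, hθ₁irr, hθ₁⟩ := exists_irr_constituent hres hresne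
  by_contra hno
  have hθ₁b : (⟨θ₁, hθ₁irr⟩ : IrrCharacter N) ∉ b := fun h => hno ⟨_, h, hθ₁⟩
  have e0 : omegaFun (ψ₀ : T → ℂ) r = 1 := by
    unfold omegaFun
    rw [hval ψ₀ θ₀ he, if_pos hθ₀]
    exact div_self (irr_one_ne_zero ψ₀.2)
  have e1 : omegaFun (ψ : T → ℂ) r = 0 := by
    unfold omegaFun
    rw [hval ψ ⟨θ₁, hθ₁irr⟩ hθ₁, if_neg hθ₁b, zero_div]
  rw [e0, e1, sub_zero] at h1
  exact not_memLocalIdeal_one M h1

/-- the central character of a character induced from the stabilizer at the induced idempotent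
of a set of characters of the stabilizer all lying over the block -/
theorem omegaFun_ind_blockCoeff {p : ℕ} {M : Ideal AlgInt} (hM : IsPModular p M)
    (b : Set (IrrCharacter N)) (hb : IsPBlock M b)
    (T : Subgroup G) [Fintype T] (hNT : N ≤ T)
    (hT : ∀ g : G, g ∈ T ↔ ∀ θ ∈ b, conjIrr N θ g ∈ b)
    (B' : Set (IrrCharacter T)) [DecidablePred (· ∈ B')]
    (hB'over : ∀ ξ' ∈ B', ∃ θ' ∈ b,
      classInner (fun n : N => (ξ' : T → ℂ) ⟨(n : G), hNT n.2⟩) (θ' : N → ℂ) ≠ 0)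
    (ψ : IrrCharacter T) (θ : IrrCharacter N) (hθ : θ ∈ b)
    (he : classInner (fun n : N => (ψ : T → ℂ) ⟨(n : G), hNT n.2⟩) (θ : N → ℂ) ≠ 0) :
    omegaFun (indFun T (ψ : T → ℂ)) (indFun T (blockCoeff B'))
      = if ψ ∈ B' then 1 else 0 := by
  classical
  haveI : Fintype (IrrCharacter T) := Fintype.ofFinite _
  obtain ⟨hirr, -, huniq⟩ := ind_irr_of_over N hM b hb T hNT hT ψ θ hθ he
  set χf := indFun T (ψ : T → ℂ) with hχf
  have hχcf : IsClassFunction G χf := indFun_isClassFunction T _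
  set u : T → ℂ := blockCoeff B' with hu
  set χT : T → ℂ := fun t : T => χf (t : G) with hχT
  have hχTcf : IsClassFunction T χT :=
    isClassFunction_of_isCharacter (IsCharacter.restrict (isCharacter_of_isIrrCharacter hirr) T)
  have hmult : ∀ ξ' : IrrCharacter T, ξ' ∈ B' →
      classInner χT (ξ' : T → ℂ) = if ξ' = ψ then 1 else 0 := by
    intro ξ' hξ'
    by_cases h : ξ' = ψ
    · rw [if_pos h, h, ← classInner_conj_symm,
        ← frobenius_reciprocity T (ψ : T → ℂ) χf hχcf, classInner_irr_self hirr, map_one]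
    · rw [if_neg h]
      by_contra hne
      obtain ⟨θ', hθ', hne'⟩ := hB'over ξ' hξ'
      exact h (huniq ξ' θ' hθ' hne' hne)
  have hexp : χT = ∑ ξ' : IrrCharacter T, classInner χT (ξ' : T → ℂ) • (ξ' : T → ℂ) :=
    class_fun_expand χT hχTcf
  have hsumT : ∑ t : T, u t * χT t = if ψ ∈ B' then (ψ : T → ℂ) 1 else 0 := by
    have h3 : ∀ t : T, u t * χT t
        = ∑ ξ' : IrrCharacter T, classInner χT (ξ' : T → ℂ) * (u t * (ξ' : T → ℂ) t) := by
      intro t
      conv_lhs => rw [hexp]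
      rw [Finset.sum_apply, Finset.mul_sum]
      apply Finset.sum_congr rfl
      intro ξ' _
      rw [Pi.smul_apply, smul_eq_mul]
      ring
    rw [Finset.sum_congr rfl (fun t _ => h3 t), Finset.sum_comm]
    have h4 : ∀ ξ' : IrrCharacter T,
        ∑ t : T, classInner χT (ξ' : T → ℂ) * (u t * (ξ' : T → ℂ) t)
        = if ξ' = ψ then (if ψ ∈ B' then (ψ : T → ℂ) 1 else 0) else 0 := by
      intro ξ'
      rw [← Finset.mul_sum, hu, sum_blockCoeff_irr B' ξ']
      by_cases hξ' : ξ' ∈ B'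
      · rw [if_pos hξ', hmult ξ' hξ']
        by_cases h : ξ' = ψ
        · rw [if_pos h, if_pos h, one_mul, h, if_pos (h ▸ hξ')]
        · rw [if_neg h, if_neg h, zero_mul]
      · rw [if_neg hξ', mul_zero]
        by_cases h : ξ' = ψ
        · rw [if_pos h, if_neg (h ▸ hξ')]
        · rw [if_neg h]
    rw [Finset.sum_congr rfl (fun ξ' _ => h4 ξ')]
    simp
  have hχbar : IsClassFunction G (fun g => conj (χf g)) := by
    intro g h
    simp only
    rw [hχcf g h]
  have hfrob := frobenius_reciprocity T u (fun g => conj (χf g)) hχbar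
  rw [classInner_def, classInner_def] at hfrob
  simp only [Complex.conj_conj] at hfrob
  have hG := card_ne_zero_complex G
  have hTc := card_ne_zero_complex T
  have hcard : (Nat.card G : ℂ) = (Nat.card T : ℂ) * (T.index : ℂ) := by
    rw [← Nat.cast_mul, Subgroup.card_mul_index]
  have hsumG : ∑ g : G, indFun T u g * χf g = (T.index : ℂ) * ∑ t : T, u t * χT t := by
    have h5 : ∑ g : G, indFun T u g * χf g
        = (Nat.card G : ℂ) * ((Nat.card T : ℂ)⁻¹ * ∑ t : T, u t * χT t) := by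
      rw [← hfrob, ← mul_assoc, mul_inv_cancel₀ hG, one_mul]
    rw [h5, hcard]
    field_simp
  have hidx : (T.index : ℂ) ≠ 0 := by
    have : T.index ≠ 0 := Subgroup.index_ne_zero_of_finite
    exact_mod_cast this
  have hψ1 := irr_one_ne_zero ψ.2
  unfold omegaFun
  rw [Finset.sum_congr rfl (fun g _ => rfl), hsumG, hsumT, hχf,
    Cfsg.Agent.Lib.Helper8.indFun_one]
  split_ifs
  · field_simp
  · simp

/-- characters of the stabilizer lying over the block whose induced characters lie in one block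
lie in one block -/
theorem sameBlock_of_ind {p : ℕ} [Fact p.Prime] {M : Ideal AlgInt} (hM : IsPModular p M)
    (b : Set (IrrCharacter N)) (hb : IsPBlock M b)
    (T : Subgroup G) [Fintype T] (hNT : N ≤ T)
    (hT : ∀ g : G, g ∈ T ↔ ∀ θ ∈ b, conjIrr N θ g ∈ b)
    (ψ₁ ψ₂ : IrrCharacter T) (θ₁ θ₂ : IrrCharacter N) (hθ₁ : θ₁ ∈ b) (hθ₂ : θ₂ ∈ b)
    (he₁ : classInner (fun n : N => (ψ₁ : T → ℂ) ⟨(n : G), hNT n.2⟩) (θ₁ : N → ℂ) ≠ 0)
    (he₂ : classInner (fun n : N => (ψ₂ : T → ℂ) ⟨(n : G), hNT n.2⟩) (θ₂ : N → ℂ) ≠ 0)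
    (hs : SameBlock M (indFun T (ψ₁ : T → ℂ)) (indFun T (ψ₂ : T → ℂ))) :
    SameBlock M (ψ₁ : T → ℂ) (ψ₂ : T → ℂ) := by
  classical
  haveI : Fintype (IrrCharacter T) := Fintype.ofFinite _
  have hpr := isPrime_of_isPModular hM
  have hst : ∀ t ∈ T, ∀ θ ∈ b, conjIrr N θ t ∈ b := fun t ht => (hT t).mp ht
  set B' := blockOf M (ψ₁ : T → ℂ) with hB'
  have hB'blk : IsPBlock M B' := ⟨ψ₁, rfl⟩
  have hover : ∀ ξ' ∈ B', ∃ θ' ∈ b,
      classInner (fun n : N => (ξ' : T → ℂ) ⟨(n : G), hNT n.2⟩) (θ' : N → ℂ) ≠ 0 :=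
    fun ξ' hξ' => over_of_sameBlock N hM b hb T hNT hst ψ₁ ξ' hξ' θ₁ hθ₁ he₁
  have h1 := omegaFun_ind_blockCoeff N hM b hb T hNT hT B' hover ψ₁ θ₁ hθ₁ he₁
  have h2 := omegaFun_ind_blockCoeff N hM b hb T hNT hT B' hover ψ₂ θ₂ hθ₂ he₂
  obtain ⟨hirr₁, -, -⟩ := ind_irr_of_over N hM b hb T hNT hT ψ₁ θ₁ hθ₁ he₁
  obtain ⟨hirr₂, -, -⟩ := ind_irr_of_over N hM b hb T hNT hT ψ₂ θ₂ hθ₂ he₂
  set u : T → ℂ := blockCoeff B' with hu
  have hucf : IsClassFunction T u := blockCoeff_isClassFunction B'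
  have huR : ∀ t, MemLocalRing M (u t) := fun t =>
    blockCoeff_memLocalRing hM B' (blockClosed_of_isPBlock M hB'blk) t
  have hzcf : IsClassFunction G (indFun T u) := indFun_isClassFunction T u
  have hzR : ∀ g : G, MemLocalRing M (indFun T u g) := by
    intro g
    haveI : Fintype (G ⧸ T) := Fintype.ofFinite _
    have hr : ∀ x : G, ∃! q : G ⧸ T, (q.out)⁻¹ * x ∈ T := by
      intro x
      refine ⟨(x : G ⧸ T), ?_, ?_⟩
      · exact QuotientGroup.eq.mp (QuotientGroup.out_eq' _)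
      · intro q hq
        have h3 : (q.out : G ⧸ T) = (x : G ⧸ T) := QuotientGroup.eq.mpr hq
        rw [← h3, QuotientGroup.out_eq']
    rw [Cfsg.Agent.Lib.Helper15.indFun_eq_sum_reps T u hucf (fun q : G ⧸ T => q.out) hr g]
    apply memLocalRing_sum
    intro q _
    exact extendByZero_memLocalRing M T huR _
  have h3 := omegaFun_sub_mem hM ⟨_, hirr₁⟩ ⟨_, hirr₂⟩ hs (indFun T u) hzcf hzR
  have hmem₁ : ψ₁ ∈ B' := sameBlock_refl M _
  rw [h1, h2, if_pos hmem₁] at h3
  by_contra hno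
  have hmem₂ : ψ₂ ∉ B' := hno
  rw [if_neg hmem₂, sub_zero] at h3
  exact not_memLocalIdeal_one M h3

end fr

end Cfsg.Agent.Lib.Helper24
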