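import Mathlib
import Cfsg.Agent.Lib.Helper8.FirstMainIdem
import Cfsg.Agent.Lib.Helper25.BlockOrth
import Cfsg.Agent.Lib.Helper25.LocMat
import Cfsg.Agent.Lib.Helper25.BrauerPair2
import Cfsg.Agent.Lib.Helper25.OneBlock
import Cfsg.Agent.Lib.Helper25.Defect0
import Cfsg.Agent.S0911

set_option autoImplicit false

namespace Cfsg.Agent.Lib.Helper24

open Cfsg Cfsg.Agent.Lib.Helper2 Cfsg.Agent.Lib.Helper25 Cfsg.Agent.Lib.Helper8
open scoped ComplexConjugate

section green

variable {p : ℕ} {M : Ideal AlgInt}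

/-- a sum, over a finite set acted on by a `p`-group, of a function with local integer values
that is constant on orbits lies in the local ideal as soon as its values at the fixed points
do -/
theorem memLocalIdeal_sum_of_fixed [Fact p.Prime] (hM : IsPModular p M) {S : Type*} [Group S]
    [Fintype S] (hS : IsPGroup p S) {Ω : Type*} [Fintype Ω] [MulAction S Ω] (F : Ω → ℂ)
    (hFR : ∀ u, MemLocalRing M (F u)) (hinv : ∀ (s : S) (u : Ω), F (s • u) = F u)
    (hfix : ∀ u : Ω, (∀ s : S, s • u = u) → MemLocalIdeal M (F u)) :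
    MemLocalIdeal M (∑ u : Ω, F u) := by
  classical
  have hpr := isPrime_of_isPModular hM
  have hp : p.Prime := Fact.out
  rw [← Fintype.sum_fiberwise (fun u : Ω => (Quotient.mk'' u : MulAction.orbitRel.Quotient S Ω)) F]
  apply memLocalIdeal_sum
  intro o _
  set u₀ : Ω := Quotient.out o with hu₀
  have ho : (Quotient.mk'' u₀ : MulAction.orbitRel.Quotient S Ω) = o := Quotient.out_eq' o
  have hconst : ∀ u : {u : Ω // (Quotient.mk'' u : MulAction.orbitRel.Quotient S Ω) = o},
      F u = F u₀ := by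
    intro u
    have h1 : (Quotient.mk'' (u : Ω) : MulAction.orbitRel.Quotient S Ω) = Quotient.mk'' u₀ := by
      rw [u.2, ho]
    have h2 := Quotient.exact' h1
    rw [MulAction.orbitRel_apply] at h2
    obtain ⟨s, hs⟩ := h2
    rw [← hs]
    exact hinv s u₀
  rw [Finset.sum_congr rfl (fun u _ => hconst u), Finset.sum_const, Finset.card_univ,
    nsmul_eq_mul]
  have hcard : Fintype.card {u : Ω // (Quotient.mk'' u : MulAction.orbitRel.Quotient S Ω) = o}
      = Fintype.card (MulAction.orbit S u₀) := by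
    apply Fintype.card_congr
    apply Equiv.subtypeEquivRight
    intro u
    rw [← ho]
    constructor
    · intro h
      have h2 := Quotient.exact' h
      rwa [MulAction.orbitRel_apply] at h2
    · intro h
      apply Quotient.sound'
      rwa [MulAction.orbitRel_apply]
  rw [hcard]
  have hdvd : Fintype.card (MulAction.orbit S u₀) ∣ Fintype.card S := by
    have := MulAction.card_orbit_mul_card_stabilizer_eq_card_group S u₀
    exact Dvd.intro _ this
  obtain ⟨n, hn⟩ := hS.exists_card_eq
  rw [Nat.card_eq_fintype_card] at hn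
  rw [hn] at hdvd
  obtain ⟨k, -, hk⟩ := (Nat.dvd_prime_pow hp).mp hdvd
  rcases Nat.eq_zero_or_pos k with h0 | hpos
  · rw [h0, pow_zero] at hk
    have hfixed : u₀ ∈ MulAction.fixedPoints S Ω :=
      MulAction.mem_fixedPoints_iff_card_orbit_eq_one.mpr hk
    rw [hk, Nat.cast_one, one_mul]
    exact hfix u₀ (fun s => hfixed s)
  · apply MemLocalIdeal.mul_right M _ (hFR u₀)
    rw [memLocalIdeal_natCast_iff hM, hk]
    exact dvd_pow_self p hpos.ne'

/-- a conjugation-fixed element in a coset of a `p`-subgroup: if the sum over the coset `g Q`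
of a class function with local integer values is outside the local ideal, some element `y` of
the coset has its value outside the local ideal and is centralized by `Q ∩ y Q y⁻¹` -/
theorem exists_fixed_of_coset_sum [Fact p.Prime] (hM : IsPModular p M) {G : Type*} [Group G]
    [Fintype G] (Q : Subgroup G) [Fintype Q] (hQ : IsPGroup p Q)
    (φ : G → ℂ) (hφ : IsClassFunction G φ) (hφR : ∀ g, MemLocalRing M (φ g)) (g : G)
    (hg : ¬ MemLocalIdeal M (∑ u : Q, φ (g * (u : G)))) :
    ∃ y : G, ¬ MemLocalIdeal M (φ y) ∧ ∀ s ∈ Q, y⁻¹ * s * y ∈ Q → s * y = y * s := by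
  classical
  set S : Subgroup G := Q ⊓ Q.comap (MulAut.conj g⁻¹).toMonoidHom with hSdef
  have hSmem : ∀ s : G, s ∈ S ↔ s ∈ Q ∧ g⁻¹ * s * g ∈ Q := by
    intro s
    rw [hSdef, Subgroup.mem_inf, Subgroup.mem_comap]
    simp [MulAut.conj_apply]
  have hSp : IsPGroup p S := hQ.to_le inf_le_left
  letI act : MulAction S Q :=
    { smul := fun s u => ⟨g⁻¹ * (s : G) * g * (u : G) * (s : G)⁻¹,
        Q.mul_mem (Q.mul_mem ((hSmem s).mp s.2).2 u.2) (Q.inv_mem ((hSmem s).mp s.2).1)⟩
      one_smul := fun u => Subtype.ext (by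
        change g⁻¹ * ((1 : S) : G) * g * (u : G) * ((1 : S) : G)⁻¹ = (u : G)
        simp)
      mul_smul := fun s t u => Subtype.ext (by
        change g⁻¹ * ((s * t : S) : G) * g * (u : G) * ((s * t : S) : G)⁻¹
          = g⁻¹ * (s : G) * g * (g⁻¹ * (t : G) * g * (u : G) * (t : G)⁻¹) * (s : G)⁻¹
        simp [mul_assoc]) }
  have hsmul : ∀ (s : S) (u : Q), ((s • u : Q) : G) = g⁻¹ * (s : G) * g * (u : G) * (s : G)⁻¹ :=
    fun _ _ => rfl
  by_contra hcon
  apply hg
  apply memLocalIdeal_sum_of_fixed hM hSp (fun u : Q => φ (g * (u : G)))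
  · intro u
    exact hφR _
  · intro s u
    change φ (g * ((s • u : Q) : G)) = φ (g * (u : G))
    rw [hsmul]
    have h1 := hφ (g * (u : G)) (s : G)
    rw [← h1]
    congr 1
    simp [mul_assoc]
  · intro u hu
    by_contra hne
    apply hcon
    refine ⟨g * (u : G), hne, ?_⟩
    intro s hs hs'
    have hsS : s ∈ S := by
      rw [hSmem]
      refine ⟨hs, ?_⟩
      have h2 := Q.mul_mem (Q.mul_mem u.2 hs') (Q.inv_mem u.2)
      have e : (u : G) * ((g * (u : G))⁻¹ * s * (g * (u : G))) * (u : G)⁻¹ = g⁻¹ * s * g := by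
        group
      rwa [e] at h2
    have h3 := congrArg Subtype.val (hu ⟨s, hsS⟩)
    rw [hsmul] at h3
    change g⁻¹ * s * g * (u : G) * s⁻¹ = (u : G) at h3
    have h4 : s * (g * (u : G)) = g * (g⁻¹ * s * g * (u : G) * s⁻¹) * s := by group
    rw [h4, h3]

/-- the value at the identity of the coefficient function of a block is nonzero -/
theorem blockCoeff_one_ne_zero_of_isPBlock [Fact p.Prime] (hM : IsPModular p M) {G : Type*}
    [Group G] [Fintype G] (B : Set (IrrCharacter G)) (hB : IsPBlock M B) :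
    blockCoeff B (1 : G) ≠ 0 := by
  classical
  haveI hpr := isPrime_of_isPModular hM
  have : Fintype (IrrCharacter G) := Fintype.ofFinite _
  obtain ⟨χ₀, hχ₀⟩ := hB
  have hχ₀B : χ₀ ∈ B := by
    rw [hχ₀]
    exact sameBlock_refl M _
  rw [blockCoeff_eq_sum]
  apply mul_ne_zero (inv_ne_zero (card_ne_zero_complex G))
  have hterm : ∀ θ : IrrCharacter G, ∃ r : ℝ, 0 ≤ r ∧ (θ ∈ B → 0 < r) ∧
      (if θ ∈ B then (1 : ℂ) else 0) * ((θ : G → ℂ) 1 * conj ((θ : G → ℂ) 1)) = (r : ℂ) := by
    intro θ
    obtain ⟨d, hd1, hd0, _, _⟩ := irr_degree θ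
    have hd0' : (0 : ℝ) < d := by exact_mod_cast hd0
    by_cases hθ : θ ∈ B
    · refine ⟨(d : ℝ) * d, by positivity, fun _ => by positivity, ?_⟩
      rw [if_pos hθ, hd1]
      simp
    · refine ⟨0, le_rfl, fun h => absurd h hθ, ?_⟩
      rw [if_neg hθ]
      simp
  choose r hr0 hrpos hr using hterm
  rw [Finset.sum_congr rfl (fun θ _ => hr θ), ← Complex.ofReal_sum]
  have hpos : 0 < ∑ θ : IrrCharacter G, r θ :=
    Finset.sum_pos' (fun θ _ => hr0 θ) ⟨χ₀, Finset.mem_univ _, hrpos χ₀ hχ₀B⟩
  exact_mod_cast hpos.ne'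

/-- for a block and a `p`-subgroup `Q`, some coset `g Q` has the sum of the block coefficients
outside the local ideal -/
theorem exists_coset_sum_not_mem [Fact p.Prime] (hM : IsPModular p M) {G : Type*} [Group G]
    [Fintype G] (B : Set (IrrCharacter G)) (hB : IsPBlock M B) (Q : Subgroup G) [Fintype Q]
    (hQ : IsPGroup p Q) :
    ∃ g : G, ¬ MemLocalIdeal M (∑ u : Q, blockCoeff B (g * (u : G))) := by
  classical
  haveI hpr := isPrime_of_isPModular hM
  have : Fintype (IrrCharacter G) := Fintype.ofFinite _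
  have hclosed := blockClosed_of_isPBlock M hB
  have hcl : IsClassFunction G (blockCoeff B) := blockCoeff_isClassFunction B
  have hcomm : ∀ x y : G, blockCoeff B (x * y) = blockCoeff B (y * x) := by
    intro x y
    have h := hcl (x * y) y
    rw [← h]
    congr 1
    group
  by_contra hcon
  have hall : ∀ g : G, MemLocalIdeal M (∑ u : Q, blockCoeff B (g * (u : G))) := by
    intro g
    by_contra h
    exact hcon ⟨g, h⟩
  set f : G → ℂ := fun g => ∑ u : Q, blockCoeff B (g * (u : G)) with hf
  have hfr : ∀ (g : G) (v : Q), f (g * (v : G)) = f g := by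
    intro g v
    simp only [hf]
    rw [← Equiv.sum_comp (Equiv.mulLeft v⁻¹)]
    apply Finset.sum_congr rfl
    intro u _
    simp [mul_assoc]
  have hfl : ∀ (v : Q) (g : G), f ((v : G) * g) = f g := by
    intro v g
    simp only [hf]
    rw [← Equiv.sum_comp (Equiv.mulRight v⁻¹)]
    apply Finset.sum_congr rfl
    intro u _
    have e : ((Equiv.mulRight v⁻¹) u : Q) = u * v⁻¹ := rfl
    rw [e, Subgroup.coe_mul, Subgroup.coe_inv]
    have e2 : (v : G) * g * ((u : G) * (v : G)⁻¹) = (v : G) * (g * (u : G)) * (v : G)⁻¹ := by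
      group
    rw [e2, hcl]
  have hconv : ∀ k m : G, ∑ h : G, f (k * h) * f (h⁻¹ * m) = (Fintype.card Q : ℂ) * f (k * m) := by
    intro k m
    have hA : ∀ u v : Q, ∑ h : G, blockCoeff B (k * h * (u : G)) * blockCoeff B (h⁻¹ * m * (v : G))
        = blockCoeff B (k * m * (v : G) * (u : G)) := by
      intro u v
      have h1 := blockCoeff_idem B ((u : G) * k * m * (v : G))
      rw [← Equiv.sum_comp ((Equiv.inv G).trans (Equiv.mulRight (m * (v : G))))] at h1
      rw [hcomm (k * m * (v : G)) (u : G)]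
      have e : (u : G) * (k * m * (v : G)) = (u : G) * k * m * (v : G) := by group
      rw [e, ← h1]
      apply Finset.sum_congr rfl
      intro h _
      have e1 : ((Equiv.inv G).trans (Equiv.mulRight (m * (v : G)))) h = h⁻¹ * m * (v : G) := by
        simp [mul_assoc]
      rw [e1, hcomm (k * h) (u : G)]
      congr 2
      group
    have h2 : ∀ h : G, f (k * h) * f (h⁻¹ * m)
        = ∑ u : Q, ∑ v : Q, blockCoeff B (k * h * (u : G)) * blockCoeff B (h⁻¹ * m * (v : G)) := by
      intro h
      simp only [hf]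
      rw [Finset.sum_mul_sum]
    rw [Finset.sum_congr rfl (fun h _ => h2 h), Finset.sum_comm]
    have h3 : ∀ u : Q, ∑ h : G, ∑ v : Q,
        blockCoeff B (k * h * (u : G)) * blockCoeff B (h⁻¹ * m * (v : G)) = f (k * m) := by
      intro u
      rw [Finset.sum_comm, Finset.sum_congr rfl (fun v _ => hA u v)]
      simp only [hf]
      rw [← Equiv.sum_comp (Equiv.mulRight u⁻¹)]
      apply Finset.sum_congr rfl
      intro v _
      simp [mul_assoc]
    rw [Finset.sum_congr rfl (fun u _ => h3 u), Finset.sum_const, Finset.card_univ, nsmul_eq_mul]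
  have hbij : Function.Bijective (fun x : (G ⧸ Q) × Q => x.1.out * (x.2 : G)) := by
    constructor
    · rintro ⟨c, u⟩ ⟨c', u'⟩ h
      simp only at h
      have hc : c = c' := by
        have h1 : (QuotientGroup.mk (c.out * (u : G)) : G ⧸ Q)
            = QuotientGroup.mk (c'.out * (u' : G)) := by rw [h]
        rwa [QuotientGroup.mk_mul_of_mem _ u.2, QuotientGroup.mk_mul_of_mem _ u'.2,
          QuotientGroup.out_eq', QuotientGroup.out_eq'] at h1
      subst hc
      have hu : (u : G) = u' := mul_left_cancel h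
      exact Prod.ext rfl (Subtype.ext hu)
    · intro g
      have hmem : (QuotientGroup.mk g : G ⧸ Q).out⁻¹ * g ∈ Q := by
        rw [← QuotientGroup.eq, QuotientGroup.out_eq']
      exact ⟨(QuotientGroup.mk g, ⟨_, hmem⟩), by simp⟩
  set A : Matrix (G ⧸ Q) (G ⧸ Q) ℂ := Matrix.of fun a b => f (a.out⁻¹ * b.out) with hAdef
  have hcard : (Fintype.card Q : ℂ) ≠ 0 := by
    exact_mod_cast Fintype.card_ne_zero
  have hAA : A * A = A := by
    ext a c
    rw [Matrix.mul_apply]
    simp only [hAdef, Matrix.of_apply]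
    have h1 := hconv a.out⁻¹ c.out
    rw [← hbij.sum_comp, Fintype.sum_prod_type] at h1
    have h2 : ∀ b : G ⧸ Q, ∑ u : Q, f (a.out⁻¹ * (b.out * (u : G))) * f ((b.out * (u : G))⁻¹ * c.out)
        = (Fintype.card Q : ℂ) * (f (a.out⁻¹ * b.out) * f (b.out⁻¹ * c.out)) := by
      intro b
      have h3 : ∀ u : Q, f (a.out⁻¹ * (b.out * (u : G))) * f ((b.out * (u : G))⁻¹ * c.out)
          = f (a.out⁻¹ * b.out) * f (b.out⁻¹ * c.out) := by
        intro u
        have e1 : a.out⁻¹ * (b.out * (u : G)) = a.out⁻¹ * b.out * (u : G) := by group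
        have e2 : (b.out * (u : G))⁻¹ * c.out = ((u⁻¹ : Q) : G) * (b.out⁻¹ * c.out) := by
          simp [mul_assoc]
        rw [e1, e2, hfr, hfl]
      rw [Finset.sum_congr rfl (fun u _ => h3 u), Finset.sum_const, Finset.card_univ, nsmul_eq_mul]
    simp only at h1
    rw [Finset.sum_congr rfl (fun b _ => h2 b), ← Finset.mul_sum] at h1
    exact mul_left_cancel₀ hcard h1
  have hAI : ∀ a b, MemLocalIdeal M (A a b) := by
    intro a b
    simp only [hAdef, Matrix.of_apply]
    exact hall _
  have h1R : ∀ a b : G ⧸ Q, MemLocalRing M ((1 : Matrix (G ⧸ Q) (G ⧸ Q) ℂ) a b) := by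
    intro a b
    by_cases hab : a = b
    · rw [hab, Matrix.one_apply_eq]
      exact memLocalRing_one M
    · rw [Matrix.one_apply_ne hab]
      exact memLocalRing_zero M
  have hdet : ¬ MemLocalIdeal M (1 - A).det := by
    rw [det_memLocalIdeal_congr M (1 - A) 1 (fun a b => by
        rw [Matrix.sub_apply]
        exact MemLocalRing.sub M (h1R a b) (MemLocalIdeal.memLocalRing M (hAI a b))) h1R (fun a b => by
        rw [Matrix.sub_apply]
        have e : (1 : Matrix (G ⧸ Q) (G ⧸ Q) ℂ) a b - A a b - (1 : Matrix (G ⧸ Q) (G ⧸ Q) ℂ) a b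
            = - A a b := by ring
        rw [e]
        exact MemLocalIdeal.neg M (hAI a b)), Matrix.det_one]
    exact not_memLocalIdeal_one M
  have hdet0 : (1 - A).det ≠ 0 := by
    intro h0
    rw [h0] at hdet
    exact hdet (memLocalIdeal_zero M)
  have hunit : IsUnit (1 - A) := (Matrix.isUnit_iff_isUnit_det _).mpr (IsUnit.mk0 _ hdet0)
  have hA0 : A = 0 := by
    have h1 : A * (1 - A) = 0 := by
      rw [mul_sub, mul_one, hAA, sub_self]
    exact (IsUnit.mul_left_eq_zero hunit).mp h1
  have hf1 : f 1 = blockCoeff B 1 := by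
    simp only [hf]
    rw [Finset.sum_eq_single (1 : Q)]
    · simp
    · intro u _ hu1
      rw [one_mul]
      apply blockCoeff_eq_zero_of_singular hM B hclosed
      exact dvd_orderOf_of_mem_pGroup hQ u.2 (fun h => hu1 (Subtype.ext h))
    · intro h
      exact absurd (Finset.mem_univ _) h
  have hA1 : A (QuotientGroup.mk 1) (QuotientGroup.mk 1) = f 1 := by
    simp only [hAdef, Matrix.of_apply]
    rw [inv_mul_cancel]
  rw [hA0, Matrix.zero_apply] at hA1
  rw [hf1] at hA1
  exact blockCoeff_one_ne_zero_of_isPBlock hM B hB hA1.symm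

end green

end Cfsg.Agent.Lib.Helper24
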