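import Mathlib

namespace Cfsg.Agent.Lib.Helper24.PSLCount

/-- The Diophantine heart of the count: with `x ≤ 4m-2`, `y ≤ 4m+2`,
`x (m+1)^2 + y m^2 = 4m^3+2m^2-2m-2` forces `x = 2m-2`, `y = 2m`. -/
theorem dioph (m x y : ℤ) (hm : 3 ≤ m) (hx0 : 0 ≤ x) (hy0 : 0 ≤ y) (hx : x ≤ 4 * m - 2)
    (hy : y ≤ 4 * m + 2)
    (h : x * (m + 1) ^ 2 + y * m ^ 2 = 4 * m ^ 3 + 2 * m ^ 2 - 2 * m - 2) :
    x = 2 * m - 2 ∧ y = 2 * m := by
  have h1 : (x - 2 * m + 2) * (m + 1) ^ 2 = (2 * m - y) * m ^ 2 := by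
    nlinarith [h]
  have hcop : IsCoprime (m ^ 2) ((m + 1) ^ 2) := by
    apply IsCoprime.pow
    exact ⟨-1, 1, by ring⟩
  have hdvd : m ^ 2 ∣ (x - 2 * m + 2) * (m + 1) ^ 2 := by
    rw [h1]
    exact Dvd.intro_left _ rfl
  have hdvd2 : m ^ 2 ∣ (x - 2 * m + 2) := hcop.dvd_of_dvd_mul_right hdvd
  have habs : |x - 2 * m + 2| < m ^ 2 := by
    rw [abs_lt]
    constructor <;> nlinarith
  have hx' : x - 2 * m + 2 = 0 := Int.eq_zero_of_abs_lt_dvd hdvd2 habs
  have hxe : x = 2 * m - 2 := by linarith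
  refine ⟨hxe, ?_⟩
  rw [hx', zero_mul] at h1
  have hm2 : m ^ 2 ≠ 0 := by positivity
  have := mul_eq_zero.1 h1.symm
  rcases this with h2 | h2
  · linarith
  · exact absurd h2 hm2

/-- Counting core: a finite family of "degrees" with the `SL₂(q)`-type list of values
(`q = 2m+1`), square sum `|PSL₂(q)|`, and the multiplicity bounds inherited from `SL₂(q)`
contains both `q + 1` and `q - 1`. -/
theorem count_core {ι : Type*} [Fintype ι] [DecidableEq ι] (D : ι → ℕ) (m : ℕ) (hm : 3 ≤ m)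
    (hD : ∀ i, D i = 1 ∨ D i = 2 * m + 1 ∨ D i = 2 * m + 2 ∨ D i = 2 * m ∨ D i = m + 1 ∨ D i = m)
    (hsum : ∑ i, D i ^ 2 = 2 * m * (m + 1) * (2 * m + 1))
    (h1 : (Finset.univ.filter (fun i => D i = 1)).card = 1)
    (hq : (Finset.univ.filter (fun i => D i = 2 * m + 1)).card = 1)
    (ha : (Finset.univ.filter (fun i => D i = 2 * m + 2)).card ≤ m - 1)
    (hb : (Finset.univ.filter (fun i => D i = 2 * m)).card ≤ m)
    (hc : (Finset.univ.filter (fun i => D i = m + 1)).card ≤ 2)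
    (hd : (Finset.univ.filter (fun i => D i = m)).card ≤ 2) :
    (∃ i, D i = 2 * m + 2) ∧ (∃ i, D i = 2 * m) := by
  classical
  have e : ∀ i, D i ^ 2 = (if D i = 1 then 1 else 0) + (if D i = 2 * m + 1 then (2 * m + 1) ^ 2 else 0)
      + (if D i = 2 * m + 2 then (2 * m + 2) ^ 2 else 0) + (if D i = 2 * m then (2 * m) ^ 2 else 0)
      + (if D i = m + 1 then (m + 1) ^ 2 else 0) + (if D i = m then m ^ 2 else 0) := by
    intro i
    rcases hD i with h | h | h | h | h | h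
    · rw [h, if_pos rfl, if_neg (show ¬ (1 = 2 * m + 1) by omega),
        if_neg (show ¬ (1 = 2 * m + 2) by omega), if_neg (show ¬ (1 = 2 * m) by omega),
        if_neg (show ¬ (1 = m + 1) by omega), if_neg (show ¬ (1 = m) by omega)]
      simp
    · rw [h, if_neg (show ¬ (2 * m + 1 = 1) by omega), if_pos rfl,
        if_neg (show ¬ (2 * m + 1 = 2 * m + 2) by omega),
        if_neg (show ¬ (2 * m + 1 = 2 * m) by omega),
        if_neg (show ¬ (2 * m + 1 = m + 1) by omega), if_neg (show ¬ (2 * m + 1 = m) by omega)]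
      simp
    · rw [h, if_neg (show ¬ (2 * m + 2 = 1) by omega),
        if_neg (show ¬ (2 * m + 2 = 2 * m + 1) by omega), if_pos rfl,
        if_neg (show ¬ (2 * m + 2 = 2 * m) by omega),
        if_neg (show ¬ (2 * m + 2 = m + 1) by omega), if_neg (show ¬ (2 * m + 2 = m) by omega)]
      simp
    · rw [h, if_neg (show ¬ (2 * m = 1) by omega), if_neg (show ¬ (2 * m = 2 * m + 1) by omega),
        if_neg (show ¬ (2 * m = 2 * m + 2) by omega), if_pos rfl,
        if_neg (show ¬ (2 * m = m + 1) by omega), if_neg (show ¬ (2 * m = m) by omega)]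
      simp
    · rw [h, if_neg (show ¬ (m + 1 = 1) by omega), if_neg (show ¬ (m + 1 = 2 * m + 1) by omega),
        if_neg (show ¬ (m + 1 = 2 * m + 2) by omega), if_neg (show ¬ (m + 1 = 2 * m) by omega),
        if_pos rfl, if_neg (show ¬ (m + 1 = m) by omega)]
      simp
    · rw [h, if_neg (show ¬ (m = 1) by omega), if_neg (show ¬ (m = 2 * m + 1) by omega),
        if_neg (show ¬ (m = 2 * m + 2) by omega), if_neg (show ¬ (m = 2 * m) by omega),
        if_neg (show ¬ (m = m + 1) by omega), if_pos rfl]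
      simp
  have hite : ∀ (v w : ℕ), ∑ i, (if D i = v then w else 0) =
      (Finset.univ.filter (fun i => D i = v)).card * w := by
    intro v w
    rw [Finset.sum_ite, Finset.sum_const_zero, add_zero, Finset.sum_const, smul_eq_mul]
  have hsum2 : ∑ i, D i ^ 2 = (Finset.univ.filter (fun i => D i = 1)).card * 1
      + (Finset.univ.filter (fun i => D i = 2 * m + 1)).card * (2 * m + 1) ^ 2
      + (Finset.univ.filter (fun i => D i = 2 * m + 2)).card * (2 * m + 2) ^ 2
      + (Finset.univ.filter (fun i => D i = 2 * m)).card * (2 * m) ^ 2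
      + (Finset.univ.filter (fun i => D i = m + 1)).card * (m + 1) ^ 2
      + (Finset.univ.filter (fun i => D i = m)).card * m ^ 2 := by
    rw [Finset.sum_congr rfl (fun i _ => e i)]
    simp only [Finset.sum_add_distrib, hite]
  rw [hsum, h1, hq] at hsum2
  set a := (Finset.univ.filter (fun i => D i = 2 * m + 2)).card with hadef
  set b := (Finset.univ.filter (fun i => D i = 2 * m)).card with hbdef
  set c := (Finset.univ.filter (fun i => D i = m + 1)).card with hcdef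
  set d := (Finset.univ.filter (fun i => D i = m)).card with hddef
  have hz : ((4 * a + c : ℕ) : ℤ) * ((m : ℤ) + 1) ^ 2 + ((4 * b + d : ℕ) : ℤ) * (m : ℤ) ^ 2 =
      4 * (m : ℤ) ^ 3 + 2 * (m : ℤ) ^ 2 - 2 * (m : ℤ) - 2 := by
    have h2 : ((2 * m * (m + 1) * (2 * m + 1) : ℕ) : ℤ) = ((1 * 1 + 1 * (2 * m + 1) ^ 2
        + a * (2 * m + 2) ^ 2 + b * (2 * m) ^ 2 + c * (m + 1) ^ 2 + d * m ^ 2 : ℕ) : ℤ) := by
      rw [hsum2]
    push_cast at h2 ⊢
    linarith
  have hm' : (3 : ℤ) ≤ (m : ℤ) := by exact_mod_cast hm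
  have hxb : ((4 * a + c : ℕ) : ℤ) ≤ 4 * (m : ℤ) - 2 := by
    have : 4 * a + c ≤ 4 * m - 2 := by omega
    have h3 : ((4 * a + c : ℕ) : ℤ) ≤ ((4 * m - 2 : ℕ) : ℤ) := by exact_mod_cast this
    have h4 : ((4 * m - 2 : ℕ) : ℤ) = 4 * (m : ℤ) - 2 := by
      rw [Nat.cast_sub (by omega)]
      push_cast
      ring
    linarith
  have hyb : ((4 * b + d : ℕ) : ℤ) ≤ 4 * (m : ℤ) + 2 := by
    have : 4 * b + d ≤ 4 * m + 2 := by omega
    exact_mod_cast this
  obtain ⟨hx, hy⟩ := dioph (m : ℤ) ((4 * a + c : ℕ) : ℤ) ((4 * b + d : ℕ) : ℤ) hm'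
    (Int.natCast_nonneg _) (Int.natCast_nonneg _) hxb hyb hz
  have hx' : 4 * a + c + 2 = 2 * m := by
    have : ((4 * a + c + 2 : ℕ) : ℤ) = ((2 * m : ℕ) : ℤ) := by
      push_cast
      push_cast at hx
      linarith
    exact_mod_cast this
  have hy' : 4 * b + d = 2 * m := by
    have : ((4 * b + d : ℕ) : ℤ) = ((2 * m : ℕ) : ℤ) := by
      push_cast
      push_cast at hy
      linarith
    exact_mod_cast this
  have ha1 : 0 < a := by omega
  have hb1 : 0 < b := by omega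
  constructor
  · obtain ⟨i, hi⟩ := Finset.card_pos.1 ha1
    exact ⟨i, (Finset.mem_filter.1 hi).2⟩
  · obtain ⟨i, hi⟩ := Finset.card_pos.1 hb1
    exact ⟨i, (Finset.mem_filter.1 hi).2⟩

end Cfsg.Agent.Lib.Helper24.PSLCount
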