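import Mathlib
import Cfsg.Prelude.Def_Blocks
import Cfsg.Prelude.Def_BlockRank
import Cfsg.Agent.Lib.Helper25.SecondSum
import Cfsg.Agent.Lib.Helper25.DefectOne
import Cfsg.Agent.Lib.Helper25.BrauerPair8
import Cfsg.Agent.Lib.Helper8.BlockQuot
import Cfsg.Agent.Lib.Helper25.ClassProd

set_option autoImplicit false

/-!
The rank of the principal `2`-block is unchanged on dividing by a central involution, and is
transported along isomorphisms.
-/

namespace Cfsg.Agent.Lib.Helper24

open Cfsg Cfsg.Agent.Lib.Helper2 Cfsg.Agent.Lib.Helper8 Cfsg.Agent.Lib.Helper25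

open scoped ComplexConjugate

section zp

variable {G : Type*} [Group G]

theorem mem_zpowers_order_two (z : G) (hz2 : orderOf z = 2) (u : G)
    (hu : u ∈ Subgroup.zpowers z) : u = 1 ∨ u = z := by
  obtain ⟨k, rfl⟩ := Subgroup.mem_zpowers_iff.mp hu
  rw [← zpow_mod_orderOf, hz2]
  rcases Int.emod_two_eq_zero_or_one k with h | h
  · left
    rw [show ((2 : ℕ) : ℤ) = 2 from rfl, h, zpow_zero]
  · right
    rw [show ((2 : ℕ) : ℤ) = 2 from rfl, h, zpow_one]

end zp

section transport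

variable {K H : Type*} [Group K] [Group H] [Finite K] [Finite H]

theorem blockRank_image_isoIrr (p : ℕ) (φ : K ≃* H) (b : Set (IrrCharacter K)) :
    blockRank p (isoIrr φ '' b) = blockRank p b := by
  classical
  unfold blockRank
  let L : (K → ℂ) ≃ₗ[ℂ] (H → ℂ) := LinearEquiv.funCongrLeft ℂ ℂ φ.symm.toEquiv
  have himg : (fun χ : IrrCharacter H => pRegularPart p (χ : H → ℂ)) '' (isoIrr φ '' b)
      = (L : (K → ℂ) →ₗ[ℂ] (H → ℂ)) ''
        ((fun χ : IrrCharacter K => pRegularPart p (χ : K → ℂ)) '' b) := by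
    rw [Set.image_image, Set.image_image]
    apply Set.image_congr
    intro χ _
    funext h
    have hord : IsPRegular p h ↔ IsPRegular p (φ.symm h) := by
      unfold IsPRegular
      rw [MulEquiv.orderOf_eq]
    show pRegularPart p (isoIrr φ χ : H → ℂ) h = pRegularPart p (χ : K → ℂ) (φ.symm h)
    unfold pRegularPart
    by_cases hh : IsPRegular p h
    · rw [if_pos hh, if_pos (hord.mp hh)]
      rfl
    · rw [if_neg hh, if_neg (fun h' => hh (hord.mpr h'))]
  rw [himg, ← Submodule.map_span]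
  exact LinearEquiv.finrank_map_eq L _

theorem blockRank_principal_iso (p : ℕ) (M : Ideal AlgInt) (φ : K ≃* H) :
    blockRank p (principalBlock M K) = blockRank p (principalBlock M H) := by
  rw [← image_isoIrr_principal (M := M) φ, blockRank_image_isoIrr]

end transport

section rankquot

variable {G : Type*} [Group G] [Fintype G] {M : Ideal AlgInt}

theorem rank_quot_central_involution (hM : IsPModular 2 M) (z : G) (hz2 : orderOf z = 2)
    (hzc : ∀ g : G, z * g = g * z) [hZn : (Subgroup.zpowers z).Normal] :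
    blockRank 2 (principalBlock M G)
      = blockRank 2 (principalBlock M (G ⧸ Subgroup.zpowers z)) := by
  classical
  have : Fact (Nat.Prime 2) := ⟨Nat.prime_two⟩
  have hpr := isPrime_of_isPModular hM
  have : Fintype (G ⧸ Subgroup.zpowers z) := Fintype.ofFinite _
  have : Fintype (IrrCharacter G) := Fintype.ofFinite _
  have : Fintype (IrrCharacter (G ⧸ Subgroup.zpowers z)) := Fintype.ofFinite _
  have hzz : z * z = 1 := by rw [← pow_two, ← hz2, pow_orderOf_eq_one]
  have hZp : IsPGroup 2 (Subgroup.zpowers z) := by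
    apply IsPGroup.of_card (n := 1)
    rw [Nat.card_zpowers, hz2, pow_one]
  have hcen : Subgroup.centralizer ((Subgroup.zpowers z : Subgroup G) : Set G) = ⊤ := by
    rw [eq_top_iff]
    intro g _
    rw [Subgroup.mem_centralizer_iff]
    intro h hh
    rcases mem_zpowers_order_two z hz2 h hh with rfl | rfl
    · rw [one_mul, mul_one]
    · exact hzc g
  have hC : ∃ k : ℕ,
      (Subgroup.centralizer ((Subgroup.zpowers z : Subgroup G) : Set G)).index = 2 ^ k :=
    ⟨0, by rw [hcen, Subgroup.index_top, pow_zero]⟩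
  have hzcen : z ∈ Subgroup.center G := Subgroup.mem_center_iff.mpr (fun g => (hzc g).symm)
  have hsign : ∀ χ : IrrCharacter G, ∃ ε : ℂ, (ε = 1 ∨ ε = -1) ∧
      ∀ c : G, (χ : G → ℂ) (z * c) = ε * (χ : G → ℂ) c :=
    fun χ => irr_central_involution χ z hzcen hzz
  choose ε hε hεc using hsign
  set B := principalBlock M G with hB
  set B' := principalBlock M (G ⧸ Subgroup.zpowers z) with hB'
  have hBc : BlockClosed M B := blockClosed_principal M
  have hBc' : BlockClosed M B' := blockClosed_principal M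
  let infl : IrrCharacter (G ⧸ Subgroup.zpowers z) → IrrCharacter G :=
    fun ψ => ⟨fun g : G => (ψ : G ⧸ Subgroup.zpowers z → ℂ) (g : G ⧸ Subgroup.zpowers z),
      inflate_irr (Subgroup.zpowers z) ψ.2⟩
  have hinfl_inj : ∀ ψ₁ ψ₂ : IrrCharacter (G ⧸ Subgroup.zpowers z), infl ψ₁ = infl ψ₂ →
      ψ₁ = ψ₂ := by
    intro ψ₁ ψ₂ h
    apply Subtype.ext
    funext q
    obtain ⟨g, rfl⟩ := QuotientGroup.mk_surjective q
    exact congrArg (fun χ : IrrCharacter G => (χ : G → ℂ) g) h
  have hmkz : ((z : G) : G ⧸ Subgroup.zpowers z) = 1 :=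
    (QuotientGroup.eq_one_iff z).mpr (Subgroup.mem_zpowers z)
  have hinflB : ∀ ψ : IrrCharacter (G ⧸ Subgroup.zpowers z), ψ ∈ B' ↔ infl ψ ∈ B := by
    intro ψ
    exact sameBlock_inflate_iff hM (Subgroup.zpowers z) hZp hC
      (⟨fun _ => 1, isIrrCharacter_one⟩ : IrrCharacter (G ⧸ Subgroup.zpowers z)) ψ
  have hinflε : ∀ ψ : IrrCharacter (G ⧸ Subgroup.zpowers z), ε (infl ψ) = 1 := by
    intro ψ
    have h1 := hεc (infl ψ) 1
    have h2 : (infl ψ : G → ℂ) (z * 1) = (infl ψ : G → ℂ) 1 := by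
      show (ψ : G ⧸ Subgroup.zpowers z → ℂ) ((z * 1 : G) : G ⧸ Subgroup.zpowers z)
        = (ψ : G ⧸ Subgroup.zpowers z → ℂ) ((1 : G) : G ⧸ Subgroup.zpowers z)
      rw [mul_one, hmkz, QuotientGroup.mk_one]
    rw [h2] at h1
    have h0 := irr_one_ne_zero (infl ψ).2
    have h3 : (ε (infl ψ) - 1) * (infl ψ : G → ℂ) 1 = 0 := by linear_combination -h1
    rcases mul_eq_zero.mp h3 with h | h
    · exact sub_eq_zero.mp h
    · exact absurd h h0
  have hsurj : ∀ χ : IrrCharacter G, χ ∈ B → ε χ = 1 →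
      ∃ ψ : IrrCharacter (G ⧸ Subgroup.zpowers z), ψ ∈ B' ∧ infl ψ = χ := by
    intro χ hχ hχε
    have hker : ∀ n ∈ Subgroup.zpowers z, (χ : G → ℂ) n = (χ : G → ℂ) 1 := by
      intro n hn
      rcases mem_zpowers_order_two z hz2 n hn with rfl | rfl
      · rfl
      · have := hεc χ 1
        rw [hχε, one_mul, mul_one] at this
        exact this
    obtain ⟨ψ, hψ, hψχ⟩ := deflate_irr (Subgroup.zpowers z) χ.2 hker
    have hinf : infl ⟨ψ, hψ⟩ = χ := by
      apply Subtype.ext
      funext g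
      exact hψχ g
    refine ⟨⟨ψ, hψ⟩, ?_, hinf⟩
    rw [hinflB, hinf]
    exact hχ
  -- the sum over the block at a regular element
  have hA : ∀ s : G, IsPRegular 2 s →
      ∑ θ : IrrCharacter G, (if θ ∈ B then (θ : G → ℂ) s * (θ : G → ℂ) s⁻¹ else 0)
        = 2 * ∑ ψ : IrrCharacter (G ⧸ Subgroup.zpowers z), (if ψ ∈ B' then
            (ψ : G ⧸ Subgroup.zpowers z → ℂ) (s : G ⧸ Subgroup.zpowers z)
              * (ψ : G ⧸ Subgroup.zpowers z → ℂ) (s : G ⧸ Subgroup.zpowers z)⁻¹ else 0) := by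
    intro s hs
    have hzs : 2 ∣ orderOf (z * s) := by
      have hcop : (orderOf z).Coprime (orderOf s) := by
        rw [hz2]
        exact (Nat.Prime.coprime_iff_not_dvd Nat.prime_two).mpr hs
      have hcomm : Commute z s := hzc s
      rw [hcomm.orderOf_mul_eq_mul_orderOf_of_coprime hcop, hz2]
      exact dvd_mul_right 2 _
    have horth := block_orth hM B hBc s (z * s) hs hzs
    have hb : ∑ χ : IrrCharacter G, (if χ ∈ B then
        ε χ * ((χ : G → ℂ) s * (χ : G → ℂ) s⁻¹) else 0) = 0 := by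
      refine Eq.trans ?_ horth
      apply Finset.sum_congr rfl
      intro χ _
      by_cases hχ : χ ∈ B
      · rw [if_pos hχ, if_pos hχ, one_mul, hεc χ s, map_mul, irr_inv χ s]
        rcases hε χ with h | h
        · rw [h, map_one]
          ring
        · rw [h, map_neg, map_one]
          ring
      · rw [if_neg hχ, if_neg hχ, zero_mul]
    have hc : ∑ θ : IrrCharacter G, (if θ ∈ B then (θ : G → ℂ) s * (θ : G → ℂ) s⁻¹ else 0)
        = ∑ θ : IrrCharacter G, (if (θ ∈ B ∧ ε θ = 1) then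
            2 * ((θ : G → ℂ) s * (θ : G → ℂ) s⁻¹) else 0) := by
      have h1 : ∑ θ : IrrCharacter G, (if θ ∈ B then (θ : G → ℂ) s * (θ : G → ℂ) s⁻¹ else 0)
          = ∑ θ : IrrCharacter G, ((if θ ∈ B then (θ : G → ℂ) s * (θ : G → ℂ) s⁻¹ else 0)
            + (if θ ∈ B then ε θ * ((θ : G → ℂ) s * (θ : G → ℂ) s⁻¹) else 0)) := by
        rw [Finset.sum_add_distrib, hb, add_zero]
      rw [h1]
      apply Finset.sum_congr rfl
      intro θ _
      by_cases hθ : θ ∈ B
      · rcases hε θ with h | h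
        · rw [if_pos hθ, if_pos hθ, if_pos ⟨hθ, h⟩, h]
          ring
        · have hne : ¬ (θ ∈ B ∧ ε θ = 1) := by
            rintro ⟨-, h'⟩
            rw [h] at h'
            norm_num at h'
          rw [if_pos hθ, if_pos hθ, if_neg hne, h]
          ring
      · have hne : ¬ (θ ∈ B ∧ ε θ = 1) := fun h' => hθ h'.1
        rw [if_neg hθ, if_neg hθ, if_neg hne, add_zero]
    have hd : 2 * ∑ ψ : IrrCharacter (G ⧸ Subgroup.zpowers z), (if ψ ∈ B' then
            (ψ : G ⧸ Subgroup.zpowers z → ℂ) (s : G ⧸ Subgroup.zpowers z)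
              * (ψ : G ⧸ Subgroup.zpowers z → ℂ) (s : G ⧸ Subgroup.zpowers z)⁻¹ else 0)
        = ∑ ψ : IrrCharacter (G ⧸ Subgroup.zpowers z), (if ψ ∈ B' then
            2 * ((ψ : G ⧸ Subgroup.zpowers z → ℂ) (s : G ⧸ Subgroup.zpowers z)
              * (ψ : G ⧸ Subgroup.zpowers z → ℂ) (s : G ⧸ Subgroup.zpowers z)⁻¹) else 0) := by
      rw [Finset.mul_sum]
      apply Finset.sum_congr rfl
      intro ψ _
      by_cases hψ : ψ ∈ B'
      · rw [if_pos hψ, if_pos hψ]
      · rw [if_neg hψ, if_neg hψ, mul_zero]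
    rw [hc, hd, ← Finset.sum_filter, ← Finset.sum_filter]
    symm
    refine Finset.sum_bij (fun ψ _ => infl ψ) ?_ ?_ ?_ ?_
    · intro ψ hψ
      rw [Finset.mem_filter] at hψ ⊢
      exact ⟨Finset.mem_univ _, (hinflB ψ).mp hψ.2, hinflε ψ⟩
    · intro ψ₁ _ ψ₂ _ h
      exact hinfl_inj ψ₁ ψ₂ h
    · intro χ hχ
      rw [Finset.mem_filter] at hχ
      obtain ⟨ψ, hψB, hψ⟩ := hsurj χ hχ.2.1 hχ.2.2
      exact ⟨ψ, Finset.mem_filter.mpr ⟨Finset.mem_univ _, hψB⟩, hψ⟩
    · intro ψ _
      rfl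
  -- regular elements of the group and of the quotient
  have hR : ∀ F : G ⧸ Subgroup.zpowers z → ℂ,
      ∑ s : G, (if IsPRegular 2 s then F (s : G ⧸ Subgroup.zpowers z) else 0)
        = ∑ q : G ⧸ Subgroup.zpowers z, (if IsPRegular 2 q then F q else 0) := by
    intro F
    rw [← Finset.sum_filter, ← Finset.sum_filter]
    refine Finset.sum_bij (fun s _ => (s : G ⧸ Subgroup.zpowers z)) ?_ ?_ ?_ ?_
    · intro s hs
      rw [Finset.mem_filter] at hs ⊢
      refine ⟨Finset.mem_univ _, ?_⟩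
      intro h2
      exact hs.2 (dvd_trans h2 (orderOf_dvd_of_pow_eq_one (by
        rw [← QuotientGroup.mk_pow, pow_orderOf_eq_one]
        rfl)))
    · intro s hs s' hs' h
      rw [Finset.mem_filter] at hs hs'
      have h2 : s⁻¹ * s' ∈ Subgroup.zpowers z := QuotientGroup.eq.mp h
      have h3 := eq_one_of_regular_mul (Subgroup.zpowers z) hZp hC s hs.2 (s⁻¹ * s') h2 (by
        rw [mul_inv_cancel_left]
        exact hs'.2)
      exact inv_mul_eq_one.mp h3
    · intro q hq
      rw [Finset.mem_filter] at hq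
      obtain ⟨g, rfl, hg⟩ := exists_regular_lift (Subgroup.zpowers z) hZp q hq.2
      exact ⟨g, Finset.mem_filter.mpr ⟨Finset.mem_univ _, hg⟩, rfl⟩
    · intro s _
      rfl
  have h1 := sum_regular_eq_blockRank hM B hBc
  have h2 := sum_regular_eq_blockRank hM B' hBc'
  have h3 : ∑ s : G, (if IsPRegular 2 s then ∑ θ : IrrCharacter G,
        (if θ ∈ B then (θ : G → ℂ) s * (θ : G → ℂ) s⁻¹ else 0) else 0)
      = ∑ s : G, (if IsPRegular 2 s then
          (2 * ∑ ψ : IrrCharacter (G ⧸ Subgroup.zpowers z),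
            (if ψ ∈ B' then (ψ : G ⧸ Subgroup.zpowers z → ℂ) (s : G ⧸ Subgroup.zpowers z)
              * (ψ : G ⧸ Subgroup.zpowers z → ℂ) (s : G ⧸ Subgroup.zpowers z)⁻¹ else 0))
          else 0) := by
    apply Finset.sum_congr rfl
    intro s _
    by_cases hs : IsPRegular 2 s
    · rw [if_pos hs, if_pos hs, hA s hs]
    · rw [if_neg hs, if_neg hs]
  have h4 : ∑ q : G ⧸ Subgroup.zpowers z, (if IsPRegular 2 q then
        (2 * ∑ ψ : IrrCharacter (G ⧸ Subgroup.zpowers z),
          (if ψ ∈ B' then (ψ : G ⧸ Subgroup.zpowers z → ℂ) q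
            * (ψ : G ⧸ Subgroup.zpowers z → ℂ) q⁻¹ else 0)) else 0)
      = 2 * ∑ q : G ⧸ Subgroup.zpowers z, (if IsPRegular 2 q then
          ∑ ψ : IrrCharacter (G ⧸ Subgroup.zpowers z),
            (if ψ ∈ B' then (ψ : G ⧸ Subgroup.zpowers z → ℂ) q
              * (ψ : G ⧸ Subgroup.zpowers z → ℂ) q⁻¹ else 0) else 0) := by
    rw [Finset.mul_sum]
    apply Finset.sum_congr rfl
    intro q _
    by_cases hq : IsPRegular 2 q
    · rw [if_pos hq, if_pos hq]
    · rw [if_neg hq, if_neg hq, mul_zero]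
  have h1 : (Nat.card G : ℂ) * (blockRank 2 B : ℂ)
      = 2 * ((Nat.card (G ⧸ Subgroup.zpowers z) : ℂ) * (blockRank 2 B' : ℂ)) :=
    h1.symm.trans (h3.trans ((hR (fun q : G ⧸ Subgroup.zpowers z =>
      2 * ∑ ψ : IrrCharacter (G ⧸ Subgroup.zpowers z),
          (if ψ ∈ B' then (ψ : G ⧸ Subgroup.zpowers z → ℂ) q
            * (ψ : G ⧸ Subgroup.zpowers z → ℂ) q⁻¹ else 0))).trans
        (h4.trans (congrArg (fun x : ℂ => 2 * x) h2))))
  have hcard := card_quot_mul_card (Subgroup.zpowers z)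
  have hcZ : (Nat.card (Subgroup.zpowers z) : ℂ) = 2 := by
    rw [Nat.card_zpowers, hz2]
    norm_num
  rw [hcZ] at hcard
  have hne := card_ne_zero_complex (G ⧸ Subgroup.zpowers z)
  rw [← hcard] at h1
  have h5 : (blockRank 2 B' : ℂ) = (blockRank 2 B : ℂ) := by
    have h6 : (Nat.card (G ⧸ Subgroup.zpowers z) : ℂ) * 2
        * ((blockRank 2 B' : ℂ) - (blockRank 2 B : ℂ)) = 0 := by linear_combination -h1
    rcases mul_eq_zero.mp h6 with h | h
    · exfalso
      rcases mul_eq_zero.mp h with h' | h'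
      · exact hne h'
      · norm_num at h'
    · exact sub_eq_zero.mp h
  exact (Nat.cast_injective h5).symm

end rankquot

end Cfsg.Agent.Lib.Helper24
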