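import Mathlib
import Cfsg.Agent.S0261

/-!
Base case for Sylow 2-subgroups of symplectic groups: in a Sylow 2-subgroup of
`Sp_2(F)` (`F` a finite field of odd order) every square lies in the commutator subgroup.
Route: `Sp_2(F) ≃* SL_2(F)`, whose Sylow 2-subgroups are generalized quaternion (S0261).
-/

namespace Cfsg.Agent.Lib.Helper24.Sp2Sq

open Matrix

open scoped commutatorElement

section quat

/-- squares lie in the commutator subgroup of `QuaternionGroup (2 ^ k)`, `k ≥ 1` -/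
theorem quat_sq_mem (k : ℕ) (hk : 1 ≤ k) (x : QuaternionGroup (2 ^ k)) :
    x ^ 2 ∈ commutator (QuaternionGroup (2 ^ k)) := by
  have hcomm : ∀ i : ZMod (2 * 2 ^ k),
      QuaternionGroup.a (2 * i) ∈ commutator (QuaternionGroup (2 ^ k)) := by
    intro i
    have h1 : ⁅QuaternionGroup.xa (0 : ZMod (2 * 2 ^ k)), QuaternionGroup.a (-i)⁆
        ∈ commutator (QuaternionGroup (2 ^ k)) := by
      rw [commutator_def]
      exact Subgroup.commutator_mem_commutator (Subgroup.mem_top _) (Subgroup.mem_top _)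
    have h2 : ⁅QuaternionGroup.xa (0 : ZMod (2 * 2 ^ k)), QuaternionGroup.a (-i)⁆
        = QuaternionGroup.a (2 * i) := by
      rw [commutatorElement_def, mul_inv_eq_iff_eq_mul, mul_inv_eq_iff_eq_mul,
        QuaternionGroup.a_mul_a, QuaternionGroup.xa_mul_a, QuaternionGroup.a_mul_xa]
      congr 1
      ring
    rwa [h2] at h1
  cases x with
  | a i =>
    rw [pow_two, QuaternionGroup.a_mul_a, ← two_mul]
    exact hcomm i
  | xa i =>
    rw [pow_two, QuaternionGroup.xa_mul_xa]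
    have h3 : ((2 ^ k : ℕ) : ZMod (2 * 2 ^ k)) + i - i
        = 2 * ((2 ^ (k - 1) : ℕ) : ZMod (2 * 2 ^ k)) := by
      rw [add_sub_cancel_right]
      have h4 : 2 ^ k = 2 * 2 ^ (k - 1) := by
        rw [← pow_succ']
        congr 1
        omega
      rw [h4]
      push_cast
      ring
    rw [h3]
    exact hcomm _

end quat

section iso

variable {F : Type*} [Field F]

/-- the reindexing `Fin 1 ⊕ Fin 1 ≃ Fin 2` -/
def e2 : Fin 1 ⊕ Fin 1 ≃ Fin 2 where
  toFun := Sum.elim (fun _ => 0) (fun _ => 1)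
  invFun := ![Sum.inl 0, Sum.inr 0]
  left_inv := by
    rintro (i | i)
    · have hi := Subsingleton.elim i 0
      subst hi
      rfl
    · have hi := Subsingleton.elim i 0
      subst hi
      rfl
  right_inv := by
    intro i
    fin_cases i <;> rfl

theorem det_eq (M : Matrix (Fin 1 ⊕ Fin 1) (Fin 1 ⊕ Fin 1) F) :
    M.det = M (Sum.inl 0) (Sum.inl 0) * M (Sum.inr 0) (Sum.inr 0)
      - M (Sum.inl 0) (Sum.inr 0) * M (Sum.inr 0) (Sum.inl 0) := by
  rw [← Matrix.det_reindex_self e2 M, Matrix.det_fin_two]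
  rfl

theorem key (M : Matrix (Fin 1 ⊕ Fin 1) (Fin 1 ⊕ Fin 1) F) :
    M * J (Fin 1) F * Mᵀ = M.det • J (Fin 1) F := by
  rw [det_eq]
  ext i j
  rcases i with i | i <;> rcases j with j | j <;>
  · have hi := Subsingleton.elim i 0
    have hj := Subsingleton.elim j 0
    subst hi
    subst hj
    simp [Matrix.mul_apply, Matrix.J, Fintype.sum_sum_type]
    try ring

theorem mem_iff_det (M : Matrix (Fin 1 ⊕ Fin 1) (Fin 1 ⊕ Fin 1) F) :
    M ∈ symplecticGroup (Fin 1) F ↔ M.det = 1 := by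
  rw [SymplecticGroup.mem_iff, key]
  constructor
  · intro h
    have h1 := congrFun (congrFun h (Sum.inr 0)) (Sum.inl 0)
    simpa [Matrix.J] using h1
  · intro h
    rw [h, one_smul]

/-- `Sp_2(F) ≃* SL_2(F)` -/
noncomputable def spEquiv :
    ↥(symplecticGroup (Fin 1) F) ≃* SpecialLinearGroup (Fin 2) F where
  toFun A := ⟨reindexAlgEquiv F F e2 A.1, by
    rw [det_reindexAlgEquiv]; exact (mem_iff_det _).mp A.2⟩
  invFun B := ⟨(reindexAlgEquiv F F e2).symm B.1, by
    rw [mem_iff_det, ← det_reindexAlgEquiv F F e2, AlgEquiv.apply_symm_apply]; exact B.2⟩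
  left_inv A := Subtype.ext (AlgEquiv.symm_apply_apply _ _)
  right_inv B := Subtype.ext (AlgEquiv.apply_symm_apply _ _)
  map_mul' A B := Subtype.ext (by
    show reindexAlgEquiv F F e2 (A.1 * B.1) = reindexAlgEquiv F F e2 A.1 * reindexAlgEquiv F F e2 B.1
    exact map_mul _ _ _)

end iso

/-- In a Sylow 2-subgroup of `Sp_2(F)`, `F` of odd order, squares are commutators' products. -/
theorem sp2_sylow_sq_mem_commutator {F : Type*} [Field F] [Fintype F]
    (hF : Odd (Fintype.card F)) (Q : Sylow 2 ↥(Matrix.symplecticGroup (Fin 1) F)) :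
    ∀ u : ↥(Q : Subgroup ↥(Matrix.symplecticGroup (Fin 1) F)),
      u ^ 2 ∈ commutator ↥(Q : Subgroup ↥(Matrix.symplecticGroup (Fin 1) F)) := by
  classical
  intro u
  let ψ : ↥(symplecticGroup (Fin 1) F) ≃* SpecialLinearGroup (Fin 2) F := spEquiv
  let P : Sylow 2 (SpecialLinearGroup (Fin 2) F) :=
    Q.comapOfInjective ψ.symm.toMonoidHom ψ.symm.injective
      (by intro x _; exact ⟨ψ x, ψ.symm_apply_apply x⟩)
  obtain ⟨k, hk, ⟨θ⟩⟩ := Cfsg.Agent.S0261.result hF P
  let g₀ : ↥(P : Subgroup (SpecialLinearGroup (Fin 2) F)) →*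
      ↥(Q : Subgroup ↥(Matrix.symplecticGroup (Fin 1) F)) :=
    (ψ.symm.toMonoidHom.comp (P : Subgroup (SpecialLinearGroup (Fin 2) F)).subtype).codRestrict
      (Q : Subgroup ↥(Matrix.symplecticGroup (Fin 1) F)) (fun x => x.2)
  let g : QuaternionGroup (2 ^ k) →* ↥(Q : Subgroup ↥(Matrix.symplecticGroup (Fin 1) F)) :=
    g₀.comp θ.symm.toMonoidHom
  have hv : ψ u.1 ∈ (P : Subgroup (SpecialLinearGroup (Fin 2) F)) := by
    show ψ.symm (ψ u.1) ∈ (Q : Subgroup ↥(Matrix.symplecticGroup (Fin 1) F))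
    rw [ψ.symm_apply_apply]
    exact u.2
  have hg : g ((θ ⟨ψ u.1, hv⟩) ^ 2) = u ^ 2 := by
    rw [map_pow]
    congr 1
    apply Subtype.ext
    show ψ.symm ((θ.symm (θ ⟨ψ u.1, hv⟩) : ↥(P : Subgroup (SpecialLinearGroup (Fin 2) F))) :
      SpecialLinearGroup (Fin 2) F) = u.1
    rw [θ.symm_apply_apply]
    exact ψ.symm_apply_apply u.1
  rw [← hg]
  have h1 := quat_sq_mem k hk (θ ⟨ψ u.1, hv⟩)
  have h2 : (commutator (QuaternionGroup (2 ^ k))).map g
      ≤ commutator ↥(Q : Subgroup ↥(Matrix.symplecticGroup (Fin 1) F)) := by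
    rw [commutator_def, Subgroup.map_commutator, commutator_def]
    exact Subgroup.commutator_mono le_top le_top
  exact h2 (Subgroup.mem_map_of_mem g h1)

end Cfsg.Agent.Lib.Helper24.Sp2Sq
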